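import Cfsg.Agent.NilPerm.Numeric

/-!
The orbit pieces of a Sylow 2-subgroup of a symmetric group.
-/

set_option autoImplicit false
set_option linter.style.haveILetI false

namespace Cfsg.Agent.AltSylowTwo

open Equiv Subgroup

variable {α : Type*}

theorem perm_apply_inv (g : Perm α) (x : α) : g (g⁻¹ x) = x := by simp

theorem perm_inv_apply (g : Perm α) (x : α) : g⁻¹ (g x) = x := by simp

/-- The permutations fixing every point outside `X`. -/
def supp (X : Set α) : Subgroup (Perm α) where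
  carrier := {g | ∀ x, x ∉ X → g x = x}
  one_mem' := fun _ _ => rfl
  mul_mem' := fun {g h} hg hh x hx => by rw [Perm.mul_apply, hh x hx, hg x hx]
  inv_mem' := fun {g} hg x hx => Perm.inv_eq_iff_eq.2 (hg x hx).symm

theorem mem_supp {X : Set α} {g : Perm α} : g ∈ supp X ↔ ∀ x, x ∉ X → g x = x := Iff.rfl

theorem supp_maps {X : Set α} {g : Perm α} (hg : g ∈ supp X) {x : α} (hx : x ∈ X) : g x ∈ X := by
  by_contra h
  have h1 := hg _ h
  exact h (by rwa [g.injective h1])

theorem supp_ext {X : Set α} {g h : Perm α} (hg : g ∈ supp X) (hh : h ∈ supp X)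
    (hgh : ∀ x ∈ X, g x = h x) : g = h := Equiv.ext fun x => by
  by_cases hx : x ∈ X
  · exact hgh x hx
  · rw [hg x hx, hh x hx]

theorem supp_commute {X Y : Set α} (hd : ∀ x ∈ X, x ∉ Y) {g h : Perm α} (hg : g ∈ supp X)
    (hh : h ∈ supp Y) : Commute g h := Equiv.ext fun x => by
  show g (h x) = h (g x)
  by_cases hx : x ∈ X
  · rw [hh x (hd x hx), hh _ (hd _ (supp_maps hg hx))]
  · rw [hg x hx]
    by_cases hy : x ∈ Y
    · exact hg _ fun h' => hd _ h' (supp_maps hh hy)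
    · rw [hh x hy, hg x hx]

theorem supp_mono {X Y : Set α} (h : X ⊆ Y) : supp X ≤ supp Y :=
  fun _ hg x hx => hg x fun h' => hx (h h')

theorem conj_mem_supp {X : Set α} {g s : Perm α} (hg : ∀ x, g x ∈ X ↔ x ∈ X) (hs : s ∈ supp X) :
    g * s * g⁻¹ ∈ supp X := fun x hx => by
  have h1 : g⁻¹ x ∉ X := fun h => hx (by have h2 := (hg (g⁻¹ x)).2 h; rwa [perm_apply_inv] at h2)
  rw [Perm.mul_apply, Perm.mul_apply, hs _ h1, perm_apply_inv]

theorem swap_mem_supp [DecidableEq α] {X : Set α} {a b : α} (ha : a ∈ X) (hb : b ∈ X) :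
    Equiv.swap a b ∈ supp X :=
  fun x hx => Equiv.swap_apply_of_ne_of_ne (fun h => hx (h ▸ ha)) (fun h => hx (h ▸ hb))

open scoped Classical in
/-- The restriction of `g` to `X`, extended by the identity. -/
noncomputable def restr (X : Set α) (g : Perm α) : Perm α :=
  if h : ∀ x, g x ∈ X ↔ x ∈ X then Perm.ofSubtype (g.subtypePerm h) else 1

theorem restr_mem_supp (X : Set α) (g : Perm α) : restr X g ∈ supp X := by
  classical
  intro x hx
  unfold restr
  split_ifs with h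
  · exact Perm.ofSubtype_apply_of_not_mem _ hx
  · rfl

theorem restr_apply {X : Set α} {g : Perm α} (h : ∀ x, g x ∈ X ↔ x ∈ X) {x : α} (hx : x ∈ X) :
    restr X g x = g x := by
  classical
  rw [restr, dif_pos h, Perm.ofSubtype_apply_of_mem _ hx]
  rfl

theorem restr_mul {X : Set α} {g h : Perm α} (hg : ∀ x, g x ∈ X ↔ x ∈ X) (hh : ∀ x, h x ∈ X ↔ x ∈ X) :
    restr X (g * h) = restr X g * restr X h := by
  refine supp_ext (restr_mem_supp X _) (mul_mem (restr_mem_supp X g) (restr_mem_supp X h))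
    fun x hx => ?_
  rw [restr_apply (fun y => by rw [Perm.mul_apply, hg, hh]) hx, Perm.mul_apply, Perm.mul_apply,
    restr_apply hh hx, restr_apply hg ((hh x).2 hx)]

theorem restr_one (X : Set α) : restr X (1 : Perm α) = 1 :=
  supp_ext (restr_mem_supp X _) (one_mem _) fun _ hx => restr_apply (fun _ => Iff.rfl) hx

theorem restr_of_supp {X : Set α} {g : Perm α} (hg : g ∈ supp X) : restr X g = g := by
  refine supp_ext (restr_mem_supp X _) hg fun x hx => restr_apply (fun y => ?_) hx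
  exact ⟨fun h => by by_contra hy; exact hy (by rwa [hg y hy] at h), supp_maps hg⟩

theorem restr_of_disjoint {X Y : Set α} (hd : ∀ x ∈ X, x ∉ Y) {g : Perm α}
    (hi : ∀ x, g x ∈ X ↔ x ∈ X) (hg : g ∈ supp Y) : restr X g = 1 :=
  supp_ext (restr_mem_supp X _) (one_mem _) fun x hx => by
    rw [restr_apply hi hx]; exact hg x (hd x hx)

theorem restr_mul_compl {X : Set α} {g : Perm α} (h : ∀ x, g x ∈ X ↔ x ∈ X) :
    restr X g * restr Xᶜ g = g := Equiv.ext fun x => by
  rw [Perm.mul_apply]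
  by_cases hx : x ∈ X
  · rw [restr_mem_supp Xᶜ g x (fun h' => h' hx), restr_apply h hx]
  · have hc : ∀ y, g y ∈ Xᶜ ↔ y ∈ Xᶜ := fun y => (h y).not
    rw [restr_apply hc hx, restr_mem_supp X g _ (fun h' => hx ((h x).1 h'))]

variable [Fintype α] (P : Sylow 2 (Perm α))

/-- `X` is a union of orbits of `P`. -/
def Inv (X : Set α) : Prop := ∀ g ∈ (P : Subgroup (Perm α)), ∀ x, g x ∈ X ↔ x ∈ X

/-- The part of `P` supported in `X`. -/
def piece (X : Set α) : Subgroup (Perm α) := (P : Subgroup (Perm α)) ⊓ supp X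

variable {P}

theorem Inv.compl {X : Set α} (h : Inv P X) : Inv P Xᶜ := fun g hg x => (h g hg x).not

theorem Inv.union {X Y : Set α} (hX : Inv P X) (hY : Inv P Y) : Inv P (X ∪ Y) :=
  fun g hg x => or_congr (hX g hg x) (hY g hg x)

theorem Inv.inter {X Y : Set α} (hX : Inv P X) (hY : Inv P Y) : Inv P (X ∩ Y) :=
  fun g hg x => and_congr (hX g hg x) (hY g hg x)

/-- The restriction as a homomorphism on `P`. -/
noncomputable def restrHom {X : Set α} (h : Inv P X) : (P : Subgroup (Perm α)) →* Perm α where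
  toFun g := restr X g
  map_one' := restr_one X
  map_mul' a b := restr_mul (h a a.2) (h b b.2)

theorem restr_mem {X : Set α} (h : Inv P X) {g : Perm α} (hg : g ∈ (P : Subgroup (Perm α))) :
    restr X g ∈ (P : Subgroup (Perm α)) := by
  let f : ↥(P : Subgroup (Perm α)) × ↥(P : Subgroup (Perm α)) →* Perm α :=
    MonoidHom.noncommCoprod (restrHom h) (restrHom h.compl)
      fun a b => supp_commute (fun _ hx => Set.notMem_compl_iff.2 hx) (restr_mem_supp X _) (restr_mem_supp Xᶜ _)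
  have hf : ∀ a b, f (a, b) = restr X a * restr Xᶜ b := fun a b => rfl
  have hp : IsPGroup 2 f.range := by
    refine IsPGroup.of_surjective ?_ f.rangeRestrict f.rangeRestrict_surjective
    intro z
    obtain ⟨a, ha⟩ := P.2 z.1
    obtain ⟨b, hb⟩ := P.2 z.2
    exact ⟨a + b, Prod.ext (by rw [Prod.pow_fst, pow_add, pow_mul, ha, one_pow]; rfl)
      (by rw [Prod.pow_snd, add_comm, pow_add, pow_mul]; exact (congrArg (· ^ 2 ^ a) hb).trans (one_pow _))⟩
  have hle : (P : Subgroup (Perm α)) ≤ f.range := fun a ha =>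
    ⟨(⟨a, ha⟩, ⟨a, ha⟩), by rw [hf]; exact restr_mul_compl (h a ha)⟩
  rw [← P.3 hp hle]
  exact ⟨(⟨g, hg⟩, 1), by rw [hf, Subgroup.coe_one, restr_one, mul_one]⟩

theorem restr_mem_piece {X : Set α} (h : Inv P X) {g : Perm α} (hg : g ∈ (P : Subgroup (Perm α))) :
    restr X g ∈ piece P X := ⟨restr_mem h hg, restr_mem_supp X g⟩

theorem piece_max {X : Set α} (h : Inv P X) {Q : Subgroup (Perm α)} (hQ : IsPGroup 2 Q)
    (hQX : Q ≤ supp X) (hle : piece P X ≤ Q) : Q = piece P X := by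
  have hcomm : ∀ a ∈ Q, ∀ b ∈ piece P Xᶜ, Commute a b :=
    fun a ha b hb => supp_commute (fun _ hx => Set.notMem_compl_iff.2 hx) (hQX ha) hb.2
  let f : Q × piece P Xᶜ →* Perm α :=
    MonoidHom.noncommCoprod Q.subtype (piece P Xᶜ).subtype fun a b => hcomm a a.2 b b.2
  have hp : IsPGroup 2 f.range := by
    refine IsPGroup.of_surjective ?_ f.rangeRestrict f.rangeRestrict_surjective
    intro z
    obtain ⟨a, ha⟩ := hQ z.1
    obtain ⟨b, hb⟩ := (P.2.to_le (inf_le_left : piece P Xᶜ ≤ _)) z.2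
    exact ⟨a + b, Prod.ext (by rw [Prod.pow_fst, pow_add, pow_mul, ha, one_pow]; rfl)
      (by rw [Prod.pow_snd, add_comm, pow_add, pow_mul]; exact (congrArg (· ^ 2 ^ a) hb).trans (one_pow _))⟩
  have hPle : (P : Subgroup (Perm α)) ≤ f.range := fun a ha =>
    ⟨(⟨restr X a, hle (restr_mem_piece h ha)⟩, ⟨restr Xᶜ a, restr_mem_piece h.compl ha⟩),
      restr_mul_compl (h a ha)⟩
  refine le_antisymm (fun q hq => ⟨?_, hQX hq⟩) hle
  rw [← P.3 hp hPle]
  exact ⟨(⟨q, hq⟩, 1), by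
    show q * ((1 : piece P Xᶜ) : Perm α) = q
    rw [Subgroup.coe_one, mul_one]⟩

theorem card_supp (X : Set α) : Nat.card (supp X) = (Nat.card X).factorial := by
  classical
  rw [← Nat.card_perm]
  exact Nat.card_congr (Equiv.Perm.subtypeEquivSubtypePerm (· ∈ X)).symm

/-- The pieces are Sylow 2-subgroups of the supports. -/
theorem exists_piece_sylow {X : Set α} (h : Inv P X) :
    ∃ S : Sylow 2 (supp X), (S : Subgroup (supp X)).map (supp X).subtype = piece P X := by
  have hp : IsPGroup 2 ((piece P X).subgroupOf (supp X)) :=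
    (P.2.to_le (inf_le_left : piece P X ≤ _)).comap_subtype
  obtain ⟨S, hS⟩ := hp.exists_le_sylow
  refine ⟨S, piece_max h (S.2.map _) (map_subtype_le _) ?_⟩
  intro g hg
  exact ⟨⟨g, hg.2⟩, hS (mem_subgroupOf.2 hg), rfl⟩

theorem card_piece {X : Set α} (h : Inv P X) :
    Nat.card (piece P X) = 2 ^ NilPerm.v (Nat.card X) := by
  haveI : Fact (Nat.Prime 2) := ⟨Nat.prime_two⟩
  obtain ⟨S, hS⟩ := exists_piece_sylow h
  rw [← hS, card_map_of_injective (supp X).subtype_injective, Sylow.card_eq_multiplicity, card_supp]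
  rfl

theorem exists_swap_mem [DecidableEq α] {X : Set α} (h : Inv P X) {a b : α} (ha : a ∈ X)
    (hb : b ∈ X) (hab : a ≠ b) : ∃ t ∈ piece P X, t.IsSwap := by
  haveI : Fact (Nat.Prime 2) := ⟨Nat.prime_two⟩
  obtain ⟨S, hS⟩ := exists_piece_sylow h
  let s : supp X := ⟨Equiv.swap a b, swap_mem_supp ha hb⟩
  have hs2 : s ^ 2 = 1 := Subtype.ext (by rw [pow_two]; exact Equiv.swap_mul_self a b)
  have hp : IsPGroup 2 (zpowers s) := by
    obtain ⟨i, -, hi⟩ := (Nat.dvd_prime_pow Nat.prime_two).1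
      (orderOf_dvd_of_pow_eq_one (show s ^ (2 ^ 1) = 1 by rwa [pow_one]))
    exact IsPGroup.of_card (n := i) (by rw [Nat.card_zpowers, hi])
  obtain ⟨S', hS'⟩ := hp.exists_le_sylow
  obtain ⟨c, rfl⟩ := MulAction.exists_smul_eq (supp X) S' S
  refine ⟨(c : Perm α) * Equiv.swap a b * (c : Perm α)⁻¹, ?_, ?_⟩
  · rw [← hS]
    refine ⟨c * s * c⁻¹, ?_, rfl⟩
    rw [Sylow.coe_subgroup_smul]
    exact ⟨s, hS' (mem_zpowers s), rfl⟩
  · exact ⟨(c : Perm α) a, (c : Perm α) b, (c : Perm α).injective.ne hab,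
      (Equiv.swap_apply_apply _ a b).symm⟩

/-- The orbit of a point. -/
def orb (P : Sylow 2 (Perm α)) (x : α) : Set α := {y | ∃ g ∈ (P : Subgroup (Perm α)), g x = y}

theorem mem_orb_self (x : α) : x ∈ orb P x := ⟨1, one_mem _, rfl⟩

theorem orb_inv (x : α) : Inv P (orb P x) := fun g hg y => by
  constructor
  · rintro ⟨h, hh, hy⟩
    exact ⟨g⁻¹ * h, mul_mem (inv_mem hg) hh, by rw [Perm.mul_apply, hy, perm_inv_apply]⟩
  · rintro ⟨h, hh, hy⟩
    exact ⟨g * h, mul_mem hg hh, by rw [Perm.mul_apply, hy]⟩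

/-- `O` is an orbit of `P`. -/
def IsOrbit (P : Sylow 2 (Perm α)) (O : Set α) : Prop := ∃ x, O = orb P x

theorem IsOrbit.inv {O : Set α} (h : IsOrbit P O) : Inv P O := by
  obtain ⟨x, rfl⟩ := h; exact orb_inv x

theorem IsOrbit.nonempty {O : Set α} (h : IsOrbit P O) : O.Nonempty := by
  obtain ⟨x, rfl⟩ := h; exact ⟨x, mem_orb_self x⟩

theorem orb_eq_of_mem {x y : α} (hy : y ∈ orb P x) : orb P y = orb P x := by
  obtain ⟨g, hg, rfl⟩ := hy
  ext z
  constructor
  · rintro ⟨h, hh, rfl⟩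
    exact ⟨h * g, mul_mem hh hg, rfl⟩
  · rintro ⟨h, hh, rfl⟩
    exact ⟨h * g⁻¹, mul_mem hh (inv_mem hg), by rw [Perm.mul_apply, perm_inv_apply]⟩

theorem IsOrbit.eq_orb {O : Set α} (h : IsOrbit P O) {x : α} (hx : x ∈ O) : O = orb P x := by
  obtain ⟨y, rfl⟩ := h; exact (orb_eq_of_mem hx).symm

theorem IsOrbit.disjoint {O O' : Set α} (h : IsOrbit P O) (h' : IsOrbit P O') (hne : O ≠ O') :
    ∀ x ∈ O, x ∉ O' := fun _ hx hx' => hne ((h.eq_orb hx).trans (h'.eq_orb hx').symm)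

theorem IsOrbit.transitive {O : Set α} (h : IsOrbit P O) {a b : α} (ha : a ∈ O) (hb : b ∈ O) :
    ∃ g ∈ piece P O, g a = b := by
  rw [h.eq_orb ha] at hb
  obtain ⟨g, hg, rfl⟩ := hb
  exact ⟨restr O g, restr_mem_piece h.inv hg, restr_apply (h.inv g hg) ha⟩

theorem IsOrbit.card_eq_two_pow {O : Set α} (h : IsOrbit P O) : ∃ k, Nat.card O = 2 ^ k := by
  haveI : Fact (Nat.Prime 2) := ⟨Nat.prime_two⟩
  obtain ⟨x, rfl⟩ := h
  obtain ⟨k, hk⟩ := P.2.card_orbit x
  refine ⟨k, ?_⟩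
  rw [← hk]
  refine Nat.card_congr (Equiv.setCongr (Set.ext fun y => ?_))
  exact ⟨fun ⟨g, hg, hy⟩ => ⟨⟨g, hg⟩, hy⟩, fun ⟨g, hy⟩ => ⟨g.1, g.2, hy⟩⟩

/-- Induction over the orbits. -/
theorem mem_of_local (S : Subgroup (Perm α)) {g : Perm α} (hg : g ∈ (P : Subgroup (Perm α)))
    (h : ∀ O, IsOrbit P O → restr O g ∈ S) : g ∈ S := by
  classical
  induction hn : g.support.card using Nat.strong_induction_on generalizing g with
  | _ n ih =>
  by_cases h1 : g = 1
  · exact h1 ▸ one_mem S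
  obtain ⟨x, hx⟩ : ∃ x, g x ≠ x := by
    by_contra! hc
    exact h1 (Equiv.ext hc)
  set O := orb P x with hO
  set r := restr O g
  have hr : r ∈ (P : Subgroup (Perm α)) := restr_mem (orb_inv x) hg
  set g' := r⁻¹ * g with hg'
  have hg'P : g' ∈ (P : Subgroup (Perm α)) := mul_mem (inv_mem hr) hg
  have hg'eq : g' = restr Oᶜ g := by
    rw [hg', inv_mul_eq_iff_eq_mul]
    exact (restr_mul_compl (orb_inv x g hg)).symm
  have hlocal : ∀ O', IsOrbit P O' → restr O' g' ∈ S := by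
    intro O' hO'
    by_cases he : O' = O
    · rw [he, restr_of_disjoint (Y := Oᶜ) (fun _ hy => Set.notMem_compl_iff.2 hy) (orb_inv x g' hg'P)
        (hg'eq ▸ restr_mem_supp _ _)]
      exact one_mem S
    · have : restr O' g' = restr O' g := by
        refine supp_ext (restr_mem_supp _ _) (restr_mem_supp _ _) fun y hy => ?_
        rw [restr_apply (hO'.inv g' hg'P) hy, restr_apply (hO'.inv g hg) hy, hg'eq,
          restr_apply ((orb_inv x).compl g hg) (hO'.disjoint ⟨x, rfl⟩ he y hy)]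
      rw [this]; exact h O' hO'
  have hlt : g'.support.card < g.support.card := by
    refine Finset.card_lt_card ⟨fun y hy => ?_, fun hsub => ?_⟩
    · rw [Perm.mem_support, hg'eq] at hy
      rw [Perm.mem_support]
      intro hgy
      refine hy ?_
      by_cases hy' : y ∈ Oᶜ
      · rw [restr_apply ((orb_inv x).compl g hg) hy', hgy]
      · exact restr_mem_supp Oᶜ g y hy'
    · have h2 := hsub (Perm.mem_support.2 hx)
      rw [Perm.mem_support, hg'eq] at h2
      exact h2 (restr_mem_supp Oᶜ g x fun h' => h' (mem_orb_self x))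
  have := ih _ (hn ▸ hlt) hg'P hlocal rfl
  rw [show g = r * g' by rw [hg', mul_inv_cancel_left]]
  exact mul_mem (h O ⟨x, rfl⟩) this

theorem v_two_pow_lt (k : ℕ) : NilPerm.v (2 ^ k) < 2 ^ k := by
  induction k with
  | zero => simp [NilPerm.v]
  | succ k ih =>
    have h := NilPerm.vp_succ Nat.prime_two k
    change NilPerm.v (2 ^ (k + 1)) = NilPerm.v (2 ^ k) + 2 ^ k at h
    rw [h, pow_succ]
    omega

theorem orbit_card_injective {O O' : Set α} (h : IsOrbit P O) (h' : IsOrbit P O')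
    (hcard : Nat.card O = Nat.card O') : O = O' := by
  classical
  by_contra hne
  have hd := h.disjoint h' hne
  have hU := h.inv.union h'.inv
  let f : piece P (O ∪ O') → piece P O × piece P O' := fun g =>
    (⟨restr O g, restr_mem_piece h.inv g.2.1⟩, ⟨restr O' g, restr_mem_piece h'.inv g.2.1⟩)
  have hf : Function.Injective f := by
    intro a b hab
    have e1 : restr O (a : Perm α) = restr O (b : Perm α) := congrArg (Subtype.val ∘ Prod.fst) hab
    have e2 : restr O' (a : Perm α) = restr O' (b : Perm α) := congrArg (Subtype.val ∘ Prod.snd) hab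
    refine Subtype.ext (supp_ext a.2.2 b.2.2 fun x hx => ?_)
    rcases hx with hx | hx
    · rw [← restr_apply (h.inv _ a.2.1) hx, ← restr_apply (h.inv _ b.2.1) hx, e1]
    · rw [← restr_apply (h'.inv _ a.2.1) hx, ← restr_apply (h'.inv _ b.2.1) hx, e2]
  have hle := Nat.card_le_card_of_injective f hf
  rw [Nat.card_prod, card_piece hU, card_piece h.inv, card_piece h'.inv, hcard, ← pow_add] at hle
  have hle' := (Nat.pow_le_pow_iff_right (show 1 < 2 by norm_num)).1 hle
  have hUc : Nat.card ↥(O ∪ O') = 2 * Nat.card O' := by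
    have := Set.ncard_union_eq (Set.disjoint_left.2 fun x hx => hd x hx) (Set.toFinite O) (Set.toFinite O')
    rw [← Nat.card_coe_set_eq, ← Nat.card_coe_set_eq, ← Nat.card_coe_set_eq] at this
    omega
  rw [hUc] at hle'
  obtain ⟨k, hk⟩ := h'.card_eq_two_pow
  have h2 := NilPerm.vp_succ Nat.prime_two k
  change NilPerm.v (2 ^ (k + 1)) = NilPerm.v (2 ^ k) + 2 ^ k at h2
  rw [hk, ← pow_succ', h2] at hle'
  have := v_two_pow_lt k
  omega

/-- A group of order four of semiregular permutations commuting with a large transitive group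
forces a small orbit. -/
theorem four_central {O : Set α} {H Z : Subgroup (Perm α)} (hH : H ≤ supp O)
    (hHp : IsPGroup 2 H) (htr : ∀ a ∈ O, ∀ b ∈ O, ∃ g ∈ H, g a = b) {s : ℕ}
    (hs : 2 ^ NilPerm.v (Nat.card O) ≤ 2 ^ s * Nat.card H) (hZ : Z ≤ supp O)
    (hZ4 : Nat.card Z = 4) (hc : ∀ z ∈ Z, ∀ g ∈ H, Commute z g) : Nat.card O ≤ 4 * s := by
  classical
  have hfree : ∀ z ∈ Z, ∀ a ∈ O, z a = a → z = 1 := by
    intro z hz a ha hza
    refine supp_ext (hZ hz) (one_mem _) fun b hb => ?_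
    obtain ⟨g, hg, rfl⟩ := htr a ha b hb
    show (z * g) a = g a
    rw [(hc z hz g hg).eq, Perm.mul_apply, hza]
  let B : α → Set α := fun x => {y | ∃ z ∈ Z, z x = y}
  have hBmem : ∀ {x y}, y ∈ B x → B y = B x := by
    rintro x y ⟨z, hz, rfl⟩
    ext w
    constructor
    · rintro ⟨z', hz', rfl⟩; exact ⟨z' * z, mul_mem hz' hz, rfl⟩
    · rintro ⟨z', hz', rfl⟩
      exact ⟨z' * z⁻¹, mul_mem hz' (inv_mem hz), by rw [Perm.mul_apply, perm_inv_apply]⟩
  let Bl := B '' O
  let rep : Bl → α := fun b => b.2.choose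
  have hrep : ∀ b : Bl, rep b ∈ O ∧ B (rep b) = b.1 := fun b => b.2.choose_spec
  let F : Bl × Z → O := fun p => ⟨(p.2 : Perm α) (rep p.1), supp_maps (hZ p.2.2) (hrep p.1).1⟩
  have hF : Function.Bijective F := by
    refine ⟨fun p q hpq => ?_, fun x => ?_⟩
    · have e : (p.2 : Perm α) (rep p.1) = (q.2 : Perm α) (rep q.1) := congrArg Subtype.val hpq
      have e1 : p.1 = q.1 := Subtype.ext (by
        rw [← (hrep p.1).2, ← (hrep q.1).2, ← hBmem ⟨p.2, p.2.2, rfl⟩, e, hBmem ⟨q.2, q.2.2, rfl⟩])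
      refine Prod.ext e1 (Subtype.ext ?_)
      rw [← e1] at e
      refine (inv_mul_eq_one.1 (hfree _ (mul_mem (inv_mem q.2.2) p.2.2) _ (hrep p.1).1 ?_)).symm
      rw [Perm.mul_apply, e, perm_inv_apply]
    · let b : Bl := ⟨B x.1, x.1, x.2, rfl⟩
      have : x.1 ∈ B (rep b) := by rw [(hrep b).2]; exact ⟨1, one_mem _, rfl⟩
      obtain ⟨z, hz, hzx⟩ := this
      exact ⟨(b, ⟨z, hz⟩), Subtype.ext hzx⟩
  have hd : Nat.card O = Nat.card Bl * 4 := by
    rw [← Nat.card_congr (Equiv.ofBijective F hF), Nat.card_prod, hZ4]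
  have hBimg : ∀ g ∈ H, ∀ x, g '' B x = B (g x) := by
    intro g hg x
    ext w
    constructor
    · rintro ⟨_, ⟨z, hz, rfl⟩, rfl⟩
      exact ⟨z, hz, by show (z * g) x = (g * z) x; rw [(hc z hz g hg).eq]⟩
    · rintro ⟨z, hz, rfl⟩
      exact ⟨z x, ⟨z, hz, rfl⟩, by show (g * z) x = (z * g) x; rw [(hc z hz g hg).eq]⟩
  let act : H → Bl → Bl := fun g b => ⟨(g : Perm α) '' b.1, by
    obtain ⟨x, hx, hxb⟩ := b.2
    exact ⟨(g : Perm α) x, supp_maps (hH g.2) hx, by rw [← hxb, hBimg g g.2 x]⟩⟩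
  let ψ : H →* Perm Bl :=
    { toFun := fun g => ⟨act g, act g⁻¹,
        fun b => Subtype.ext (by simp [act, Set.image_image]),
        fun b => Subtype.ext (by simp [act, Set.image_image])⟩
      map_one' := Equiv.ext fun b => Subtype.ext (by simp [act])
      map_mul' := fun g h => Equiv.ext fun b => Subtype.ext (by simp [act, Set.image_image]) }
  have hk : ∀ (g : ψ.ker) (b : Bl), ∃ z : Z, (z : Perm α) (rep b) = ((g : H) : Perm α) (rep b) := by
    intro g b
    have h1 : ((g : H) : Perm α) '' b.1 = b.1 := congrArg Subtype.val (Equiv.congr_fun g.2 b)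
    rw [← (hrep b).2, hBimg _ (g : H).2] at h1
    have h2 : ((g : H) : Perm α) (rep b) ∈ B (rep b) := h1 ▸ ⟨1, one_mem _, rfl⟩
    obtain ⟨z, hz, hzx⟩ := h2
    exact ⟨⟨z, hz⟩, hzx⟩
  choose kz hkz using hk
  have hker : Nat.card ψ.ker ≤ 4 ^ Nat.card Bl := by
    rw [← hZ4, ← Nat.card_fun]
    refine Nat.card_le_card_of_injective kz fun g g' hgg' => Subtype.ext (Subtype.ext ?_)
    refine supp_ext (hH (g : H).2) (hH (g' : H).2) fun x hx => ?_
    obtain ⟨⟨b, z⟩, hp⟩ := hF.2 ⟨x, hx⟩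
    have hx' : (z : Perm α) (rep b) = x := congrArg Subtype.val hp
    rw [← hx', ← Perm.mul_apply, ← (hc z z.2 _ (g : H).2).eq, Perm.mul_apply, ← hkz g b, hgg',
      hkz g' b, ← Perm.mul_apply, (hc z z.2 _ (g' : H).2).eq, Perm.mul_apply]
  obtain ⟨e, he⟩ := IsPGroup.iff_card.1 (hHp.of_surjective ψ.rangeRestrict ψ.rangeRestrict_surjective)
  have hrange : Nat.card ψ.range ≤ 2 ^ NilPerm.v (Nat.card Bl) := by
    have hdvd := ψ.range.card_subgroup_dvd_card
    rw [he, Nat.card_perm] at hdvd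
    rw [he]
    exact Nat.pow_le_pow_right two_pos
      ((Nat.prime_two.pow_dvd_iff_le_factorization (Nat.factorial_ne_zero _)).1 hdvd)
  have hHle : Nat.card H ≤ 4 ^ Nat.card Bl * 2 ^ NilPerm.v (Nat.card Bl) := by
    rw [← ψ.ker.card_mul_index, Subgroup.index_ker]
    exact Nat.mul_le_mul hker hrange
  have hv : NilPerm.v (Nat.card O) = NilPerm.v (Nat.card Bl) + Nat.card Bl + 2 * Nat.card Bl := by
    rw [hd, show Nat.card Bl * 4 = 2 * (2 * Nat.card Bl) by ring]
    unfold NilPerm.v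
    rw [Nat.factorization_factorial_mul Nat.prime_two, Nat.factorization_factorial_mul Nat.prime_two]
  have h4 := hs.trans (Nat.mul_le_mul_left (2 ^ s) hHle)
  rw [show (4 : ℕ) = 2 ^ 2 from rfl, ← pow_mul, ← pow_add, ← pow_add, hv] at h4
  have := (Nat.pow_le_pow_iff_right (show 1 < 2 by norm_num)).1 h4
  omega

/-- The centre of a large transitive 2-group has order at most two. -/
theorem central_card_le {O : Set α} {H Z : Subgroup (Perm α)} (hH : H ≤ supp O)
    (hHp : IsPGroup 2 H) (htr : ∀ a ∈ O, ∀ b ∈ O, ∃ g ∈ H, g a = b) {s : ℕ}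
    (hs : 2 ^ NilPerm.v (Nat.card O) ≤ 2 ^ s * Nat.card H) (hd : 4 * s < Nat.card O)
    (hZ : Z ≤ supp O) (hZp : IsPGroup 2 Z) (hc : ∀ z ∈ Z, ∀ g ∈ H, Commute z g) :
    Nat.card Z ≤ 2 := by
  haveI : Fact (Nat.Prime 2) := ⟨Nat.prime_two⟩
  by_contra hcon
  obtain ⟨j, hj⟩ := IsPGroup.iff_card.1 hZp
  have hj2 : 2 ≤ j := by
    by_contra h
    interval_cases j <;> omega
  obtain ⟨Z', hZ'⟩ := Sylow.exists_subgroup_card_pow_prime (G := Z) 2 (n := 2)
    (hj ▸ pow_dvd_pow 2 hj2)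
  have := four_central hH hHp htr hs ((map_subtype_le Z').trans hZ)
    (by rw [card_map_of_injective Z.subtype_injective, hZ']; rfl)
    (fun z hz g hg => hc z (map_subtype_le Z' hz) g hg)
  omega

end Cfsg.Agent.AltSylowTwo
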