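import Cfsg.Agent.AltSylowTwo.Basic
import Cfsg.Agent.PGroup.Basic
import Cfsg.Prelude.Def_TwoFusion

/-!
Direct decomposability of the even part of a Sylow 2-subgroup of a symmetric group.
-/

set_option autoImplicit false
set_option linter.style.haveILetI false

namespace Cfsg.Agent.AltSylowTwo

open Equiv Subgroup
open scoped commutatorElement

theorem inj_three {β : Type*} {a b c : β} (hab : a ≠ b) (hac : a ≠ c) (hbc : b ≠ c) :
    Function.Injective ![a, b, c] := by
  intro i j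
  fin_cases i <;> fin_cases j <;> simp [hab, hac, hbc, hab.symm, hac.symm, hbc.symm]

/-- A finite 2-group with centre of order at most two is directly indecomposable. -/
theorem indecomposable_of_center {G : Type*} [Group G] [Finite G] {K : Subgroup G}
    (hK : IsPGroup 2 K) (hc : Nat.card ↥(K ⊓ centralizer (K : Set G)) ≤ 2) {A B : Subgroup G}
    (h : Cfsg.IsInternalDirectProduct A B K) : A = ⊥ ∨ B = ⊥ := by
  haveI : Fact (Nat.Prime 2) := ⟨Nat.prime_two⟩
  obtain ⟨hA, hB, hcomm, hd, hsup⟩ := h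
  by_contra! hne
  have key : ∀ C D : Subgroup G, C ≤ K → C ≠ ⊥ → (∀ a ∈ C, ∀ b ∈ D, a * b = b * a) → C ⊔ D = K →
      ∃ c ∈ C, c ≠ 1 ∧ c ∈ K ⊓ centralizer (K : Set G) := by
    intro C D hC hC1 hCD hs
    haveI := (nontrivial_iff_ne_bot C).2 hC1
    haveI := (hK.to_le hC).center_nontrivial
    obtain ⟨⟨c, hc'⟩, hc1⟩ := exists_ne (1 : center C)
    refine ⟨c, c.2, fun h => hc1 (Subtype.ext (Subtype.ext h)), hC c.2, mem_centralizer_iff.2 fun k hk => ?_⟩
    have hle : K ≤ centralizer {(c : G)} := by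
      rw [← hs]
      refine sup_le (fun x hx => mem_centralizer_singleton_iff.2 ?_)
        (fun x hx => mem_centralizer_singleton_iff.2 (hCD c c.2 x hx).symm)
      exact congrArg Subtype.val (mem_center_iff.1 hc' ⟨x, hx⟩)
    exact mem_centralizer_singleton_iff.1 (hle hk)
  obtain ⟨a, ha, ha1, haZ⟩ := key A B hA hne.1 hcomm hsup
  obtain ⟨b, hb, hb1, hbZ⟩ := key B A hB hne.2 (fun x hx y hy => (hcomm y hy x hx).symm)
    (by rwa [sup_comm])
  have hab : a ≠ b := fun h => ha1 (by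
    have : a ∈ A ⊓ B := ⟨ha, h ▸ hb⟩
    rwa [hd, mem_bot] at this)
  classical
  let f : Fin 3 → ↥(K ⊓ centralizer (K : Set G)) := ![1, ⟨a, haZ⟩, ⟨b, hbZ⟩]
  have hf : Function.Injective f := inj_three (fun h => ha1 (congrArg Subtype.val h).symm) (fun h => hb1 (congrArg Subtype.val h).symm) (fun h => hab (congrArg Subtype.val h))
  have := Nat.card_le_card_of_injective f hf
  rw [Nat.card_fin] at this
  omega

variable {α : Type*} [Fintype α] [DecidableEq α] {P : Sylow 2 (Perm α)}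

theorem sign_int_eq {g : Perm α} (h : Perm.sign g ≠ 1) : Perm.sign g = -1 :=
  (Int.units_eq_one_or _).resolve_left h

theorem three_cycle_not_mem {g : Perm α} (hg : g ∈ (P : Subgroup (Perm α))) :
    ¬ g.IsThreeCycle := by
  intro h3
  haveI : Fact (Nat.Prime 2) := ⟨Nat.prime_two⟩
  obtain ⟨k, hk⟩ := IsPGroup.iff_orderOf.1 P.2 ⟨g, hg⟩
  rw [Subgroup.orderOf_mk, h3.orderOf] at hk
  have : 3 ∣ 2 ^ k := hk ▸ dvd_rfl
  exact absurd ((Nat.prime_dvd_prime_iff_eq Nat.prime_three Nat.prime_two).1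
    (Nat.prime_three.dvd_of_dvd_pow this)) (by norm_num)

/-- Transpositions in a 2-group moving a common point are equal. -/
theorem swap_eq_of_common {t u : Perm α} (ht : t ∈ (P : Subgroup (Perm α)))
    (hu : u ∈ (P : Subgroup (Perm α))) (hts : t.IsSwap) (hus : u.IsSwap) {x : α} (htx : t x ≠ x)
    (hux : u x ≠ x) : t = u := by
  have key : ∀ w : Perm α, w.IsSwap → w x ≠ x → w = Equiv.swap x (w x) := by
    rintro w ⟨a, b, hab, rfl⟩ hw
    rcases eq_or_ne x a with rfl | hxa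
    · rw [Equiv.swap_apply_left]
    · rcases eq_or_ne x b with rfl | hxb
      · rw [Equiv.swap_apply_right, Equiv.swap_comm]
      · exact absurd (Equiv.swap_apply_of_ne_of_ne hxa hxb) hw
  have e1 := key t hts htx
  have e2 := key u hus hux
  by_contra hne
  refine three_cycle_not_mem (mul_mem ht hu) ?_
  rw [e1, e2]
  refine Perm.isThreeCycle_swap_mul_swap_same (fun h => htx h.symm) (fun h => hux h.symm) fun h => ?_
  exact hne (by rw [e1, e2, h])

theorem conj_isSwap {t : Perm α} (ht : t.IsSwap) (g : Perm α) : (g * t * g⁻¹).IsSwap := by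
  obtain ⟨a, b, hab, rfl⟩ := ht
  exact ⟨g a, g b, g.injective.ne hab, (Equiv.swap_apply_apply g a b).symm⟩

theorem swap_commute {t u : Perm α} (ht : t ∈ (P : Subgroup (Perm α)))
    (hu : u ∈ (P : Subgroup (Perm α))) (hts : t.IsSwap) (hus : u.IsSwap) : Commute t u := by
  rcases eq_or_ne t u with rfl | hne
  · exact Commute.refl t
  · refine Perm.Disjoint.commute fun x => ?_
    by_contra! h
    exact hne (swap_eq_of_common ht hu hts hus h.1 h.2)

theorem swap_inv {t : Perm α} (ht : t.IsSwap) : t * t = 1 := by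
  obtain ⟨a, b, -, rfl⟩ := ht
  exact Equiv.swap_mul_self a b

theorem swap_sign {t : Perm α} (ht : t.IsSwap) : Perm.sign t = -1 := Perm.IsSwap.sign_eq ht

omit [DecidableEq α] in
theorem conj_mem_piece {X : Set α} (h : Inv P X) {g s : Perm α} (hg : g ∈ (P : Subgroup (Perm α)))
    (hs : s ∈ piece P X) : g * s * g⁻¹ ∈ piece P X :=
  Subgroup.mem_inf.2 ⟨mul_mem (mul_mem hg hs.1) (inv_mem hg), conj_mem_supp (h g hg) hs.2⟩

/-- The transpositions of a piece cover the orbit. -/
theorem exists_swap_at {O : Set α} (hO : IsOrbit P O) (h2 : 2 ≤ Nat.card O) {x : α} (hx : x ∈ O) :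
    ∃ t ∈ piece P O, t.IsSwap ∧ t x ≠ x := by
  haveI : Nontrivial O := Finite.one_lt_card_iff_nontrivial.1 h2
  obtain ⟨⟨y, hy⟩, hyx⟩ := exists_ne (⟨x, hx⟩ : O)
  obtain ⟨t, ht, hts⟩ := exists_swap_mem hO.inv hx hy fun h => hyx (Subtype.ext h.symm)
  obtain ⟨a, b, hab, rfl⟩ := hts
  have ha : a ∈ O := by
    by_contra h
    exact hab (by simpa using (ht.2 a h).symm)
  obtain ⟨g, hg, hga⟩ := hO.transitive ha hx
  refine ⟨g * Equiv.swap a b * g⁻¹, conj_mem_piece hO.inv hg.1 ht, conj_isSwap ⟨a, b, hab, rfl⟩ g, ?_⟩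
  rw [← Equiv.swap_apply_apply, ← hga, Equiv.swap_apply_left]
  exact g.injective.ne hab.symm

theorem exists_moved_swap {O : Set α} (hO : IsOrbit P O) (h4 : 4 ≤ Nat.card O) {t : Perm α}
    (ht : t ∈ piece P O) (hts : t.IsSwap) : ∃ g ∈ piece P O, g * t * g⁻¹ ≠ t := by
  classical
  obtain ⟨a, b, hab, rfl⟩ := hts
  have ha : a ∈ O := by
    by_contra h
    exact hab (by simpa using (ht.2 a h).symm)
  obtain ⟨c, hc, hca, hcb⟩ : ∃ c ∈ O, c ≠ a ∧ c ≠ b := by
    by_contra! hcon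
    have hsub : O ⊆ {a, b} := fun c hc => by
      by_cases h : c = a
      · exact Or.inl h
      · exact Or.inr (hcon c hc h)
    have h1 := Set.ncard_le_ncard hsub
    rw [← Nat.card_coe_set_eq] at h1
    have h2 : ({a, b} : Set α).ncard ≤ 2 := (Set.ncard_insert_le _ _).trans (by simp)
    omega
  obtain ⟨g, hg, hga⟩ := hO.transitive ha hc
  refine ⟨g, hg, fun h => ?_⟩
  rw [← Equiv.swap_apply_apply] at h
  have h1 := congrArg (fun w : Perm α => w c) h
  simp only [← hga, Equiv.swap_apply_left] at h1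
  rw [hga, Equiv.swap_apply_of_ne_of_ne hca hcb, ← hga] at h1
  exact hab (g.injective h1.symm)

omit [DecidableEq α] in
/-- The centre of a piece. -/
theorem center_piece_card {O : Set α} (hO : IsOrbit P O) :
    Nat.card ↥(piece P O ⊓ centralizer (piece P O : Set (Perm α))) ≤ 2 :=
  central_card_le (H := piece P O) (s := 0) inf_le_right (P.2.to_le inf_le_left)
    (fun _ ha _ hb => hO.transitive ha hb) (by rw [card_piece hO.inv]; simp)
    (by haveI : Nonempty O := hO.nonempty.to_subtype; exact Nat.card_pos)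
    (inf_le_left.trans inf_le_right) (P.2.to_le (inf_le_left.trans inf_le_left))
    fun z hz g hg => (mem_centralizer_iff.1 hz.2 g hg).symm

/-- A central product decomposition of a piece is trivial. -/
theorem central_or {O : Set α} (hO : IsOrbit P O) (h2 : 2 ≤ Nat.card O) (X Y : Subgroup (Perm α))
    (hX : X ≤ piece P O) (hY : Y ≤ piece P O) (hc : ∀ x ∈ X, ∀ y ∈ Y, Commute x y)
    (hgen : ∀ g ∈ piece P O, ∃ x ∈ X, ∃ y ∈ Y, g = x * y) :
    X ≤ centralizer (piece P O : Set (Perm α)) ∨ Y ≤ centralizer (piece P O : Set (Perm α)) := by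
  classical
  set T := {t : Perm α | t ∈ piece P O ∧ t.IsSwap} with hT
  have hconjT : ∀ g ∈ piece P O, ∀ t ∈ T, g * t * g⁻¹ ∈ T := fun g hg t ht =>
    ⟨mul_mem (mul_mem hg ht.1) (inv_mem hg), conj_isSwap ht.2 g⟩
  -- elements fixing all transpositions commute
  have hab : ∀ u ∈ piece P O, ∀ w ∈ piece P O, (∀ t ∈ T, u * t * u⁻¹ = t) →
      (∀ t ∈ T, w * t * w⁻¹ = t) → Commute u w := by
    intro u hu w hw hut hwt
    refine supp_ext (mul_mem hu hw).2 (mul_mem hw hu).2 fun x hx => ?_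
    obtain ⟨t, htp, hts, htx⟩ := exists_swap_at hO h2 hx
    have hpair : ∀ v ∈ piece P O, v * t * v⁻¹ = t → v x = x ∨ v x = t x := by
      intro v hv h
      obtain ⟨a, b, hab, rfl⟩ := hts
      rw [← Equiv.swap_apply_apply] at h
      have hx' : x = a ∨ x = b := by
        by_contra! hne
        exact htx (Equiv.swap_apply_of_ne_of_ne hne.1 hne.2)
      have hva : ∀ z, z = a ∨ z = b → v z = a ∨ v z = b := by
        intro z hz
        by_contra! hne
        have h1 := congrArg (fun w : Perm α => w (v z)) h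
        simp only [Equiv.swap_apply_of_ne_of_ne hne.1 hne.2] at h1
        rcases hz with rfl | rfl
        · rw [Equiv.swap_apply_left] at h1; exact hab (v.injective h1).symm
        · rw [Equiv.swap_apply_right] at h1; exact hab (v.injective h1)
      rcases hx' with rfl | rfl
      · rw [Equiv.swap_apply_left]; exact hva x (Or.inl rfl)
      · rw [Equiv.swap_apply_right]; exact (hva x (Or.inr rfl)).symm
    have hut' : ∀ z, u (t z) = t (u z) := fun z =>
      congrArg (fun g : Perm α => g z) (mul_inv_eq_iff_eq_mul.1 (hut t ⟨htp, hts⟩))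
    have hwt' : ∀ z, w (t z) = t (w z) := fun z =>
      congrArg (fun g : Perm α => g z) (mul_inv_eq_iff_eq_mul.1 (hwt t ⟨htp, hts⟩))
    show u (w x) = w (u x)
    rcases hpair u hu (hut t ⟨htp, hts⟩) with h3 | h3 <;>
      rcases hpair w hw (hwt t ⟨htp, hts⟩) with h4 | h4
    · rw [h4, h3, h4]
    · rw [h4, hut', h3, h4]
    · rw [h4, h3, hwt', h4]
    · rw [h4, hut', h3, hwt', h4]
  have hnorm : ∀ C D : Subgroup (Perm α), (∀ x ∈ C, ∀ y ∈ D, Commute x y) →
      (∀ g ∈ piece P O, ∃ x ∈ C, ∃ y ∈ D, g = x * y) → ∀ g ∈ piece P O, ∀ x ∈ C, g * x * g⁻¹ ∈ C := by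
    intro C D hCD hgen' g hg x hx
    obtain ⟨c, hcC, d, hd, rfl⟩ := hgen' g hg
    have h1 : d * x * d⁻¹ = x := by rw [← (hCD x hx d hd).eq, mul_inv_cancel_right]
    rw [show c * d * x * (c * d)⁻¹ = c * (d * x * d⁻¹) * c⁻¹ by group, h1]
    exact mul_mem (mul_mem hcC hx) (inv_mem hcC)
  have hgen2 : ∀ g ∈ piece P O, ∃ y ∈ Y, ∃ x ∈ X, g = y * x := fun g hg => by
    obtain ⟨x, hx, y, hy, rfl⟩ := hgen g hg
    exact ⟨y, hy, x, hx, (hc x hx y hy).eq⟩
  -- if one factor fixes every transposition, it is central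
  have hcentral : ∀ C D : Subgroup (Perm α), C ≤ piece P O → (∀ x ∈ C, ∀ y ∈ D, Commute x y) →
      (∀ g ∈ piece P O, ∃ x ∈ C, ∃ y ∈ D, g = x * y) → (∀ x ∈ C, ∀ t ∈ T, x * t * x⁻¹ = t) →
      C ≤ centralizer (piece P O : Set (Perm α)) := by
    intro C D hC hCD hgen' hfix x hx
    rw [mem_centralizer_iff]
    intro g hg
    obtain ⟨c, hcC, d, hd, rfl⟩ := hgen' g hg
    exact ((hab x (hC hx) c (hC hcC) (hfix x hx) (hfix c hcC)).mul_right (hCD x hx d hd)).symm.eq
  by_cases hXf : ∀ x ∈ X, ∀ t ∈ T, x * t * x⁻¹ = t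
  · exact Or.inl (hcentral X Y hX hc hgen hXf)
  by_cases hYf : ∀ y ∈ Y, ∀ t ∈ T, y * t * y⁻¹ = t
  · exact Or.inr (hcentral Y X hY (fun y hy x hx => (hc x hx y hy).symm) hgen2 hYf)
  exfalso
  push Not at hXf hYf
  obtain ⟨x₀, hx₀, t, ht, hne⟩ := hXf
  obtain ⟨y₀, hy₀, s, hs, hne'⟩ := hYf
  -- transitivity on the transpositions
  have htrans : ∀ u ∈ T, ∀ w ∈ T, ∃ g ∈ piece P O, g * u * g⁻¹ = w := by
    rintro u ⟨hu, a, b, hab, rfl⟩ w ⟨hw, c, d, hcd, rfl⟩
    have ha : a ∈ O := by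
      by_contra h
      exact hab (by simpa using (hu.2 a h).symm)
    have hc' : c ∈ O := by
      by_contra h
      exact hcd (by simpa using (hw.2 c h).symm)
    obtain ⟨g, hg, hga⟩ := hO.transitive ha hc'
    refine ⟨g, hg, swap_eq_of_common (mul_mem (mul_mem hg.1 hu.1) (inv_mem hg.1)) hw.1
      (conj_isSwap ⟨a, b, hab, rfl⟩ g) ⟨c, d, hcd, rfl⟩ (x := c) ?_ ?_⟩
    · rw [← Equiv.swap_apply_apply, ← hga, Equiv.swap_apply_left]
      exact g.injective.ne hab.symm
    · rw [Equiv.swap_apply_left]; exact hcd.symm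
  have hYmove : ∃ y ∈ Y, y * t * y⁻¹ ≠ t := by
    by_contra! hfix
    obtain ⟨g, hg, hgs⟩ := htrans t ht s hs
    refine hne' ?_
    have h1 := hnorm Y X (fun y hy x hx => (hc x hx y hy).symm) hgen2 g⁻¹ (inv_mem hg) y₀ hy₀
    have h2 := hfix _ h1
    rw [← hgs]
    calc y₀ * (g * t * g⁻¹) * y₀⁻¹ = g * ((g⁻¹ * y₀ * g⁻¹⁻¹) * t * (g⁻¹ * y₀ * g⁻¹⁻¹)⁻¹) * g⁻¹ := by group
      _ = _ := by rw [h2]
  -- both orbits of `t` are one pair
  have pair : ∀ C D : Subgroup (Perm α), C ≤ piece P O → D ≤ piece P O →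
      (∀ x ∈ C, ∀ y ∈ D, Commute x y) → (∀ g ∈ piece P O, ∀ x ∈ C, g * x * g⁻¹ ∈ C) →
      ∀ c ∈ C, c * t * c⁻¹ ≠ t → ∀ d ∈ D, d * t * d⁻¹ = t ∨ d * t * d⁻¹ = c * t * c⁻¹ := by
    intro C D hC hD hCD hn c hcC hct d hdD
    set t' := c * t * c⁻¹ with ht'
    have htt' : t' ∈ T := hconjT c (hC hcC) t ht
    have hmem : t * t' ∈ C := by
      rw [show t * t' = (t * c * t⁻¹) * c⁻¹ by
        rw [ht', inv_eq_of_mul_eq_one_left (swap_inv ht.2)]; group]
      exact mul_mem (hn t ht.1 c hcC) (inv_mem hcC)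
    have hcm : d * (t * t') * d⁻¹ = t * t' := by
      rw [← (hCD _ hmem d hdD).eq, mul_inv_cancel_right]
    have hdt : d * t * d⁻¹ ∈ T := hconjT d (hD hdD) t ht
    obtain ⟨a, b, hab, htab⟩ := ht.2
    by_contra! hcon
    have hfix : (t * t') (d a) = d a := by
      have hmv : (d * t * d⁻¹) (d a) ≠ d a := by
        rw [Perm.mul_apply, Perm.mul_apply, perm_inv_apply, htab, Equiv.swap_apply_left]
        exact d.injective.ne hab.symm
      have e1 : t (d a) = d a := by
        by_contra h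
        exact hcon.1 (swap_eq_of_common hdt.1.1 ht.1.1 hdt.2 ht.2 hmv h)
      have e2 : t' (d a) = d a := by
        by_contra h
        exact hcon.2 (swap_eq_of_common hdt.1.1 htt'.1.1 hdt.2 htt'.2 hmv h)
      rw [Perm.mul_apply, e2, e1]
    have hmv2 : (t * t') a ≠ a := by
      have e2 : t' a = a := by
        by_contra h
        refine hct (swap_eq_of_common htt'.1.1 ht.1.1 htt'.2 ht.2 h ?_)
        rw [htab, Equiv.swap_apply_left]; exact hab.symm
      rw [Perm.mul_apply, e2, htab, Equiv.swap_apply_left]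
      exact hab.symm
    rw [← hcm, Perm.mul_apply, Perm.mul_apply, perm_inv_apply] at hfix
    exact hmv2 (d.injective hfix)
  obtain ⟨y₁, hy₁, hy₁t⟩ := hYmove
  have hnX := hnorm X Y hc hgen
  have hnY := hnorm Y X (fun y hy x hx => (hc x hx y hy).symm) hgen2
  set t' := x₀ * t * x₀⁻¹ with ht'
  have hYorb := pair X Y hX hY hc hnX x₀ hx₀ hne
  have hy1t' : y₁ * t * y₁⁻¹ = t' := (hYorb y₁ hy₁).resolve_left hy₁t
  have hXorb := pair Y X hY hX (fun y hy x hx => (hc x hx y hy).symm) hnY y₁ hy₁ hy₁t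
  rw [hy1t'] at hXorb
  have hyt' : y₁ * t' * y₁⁻¹ = t := by
    rcases hYorb (y₁ * y₁) (mul_mem hy₁ hy₁) with h | h
    · calc y₁ * t' * y₁⁻¹ = y₁ * y₁ * t * (y₁ * y₁)⁻¹ := by rw [← hy1t']; group
        _ = t := h
    · exfalso
      refine hne (MulAut.conj y₁ |>.injective ?_)
      show y₁ * t' * y₁⁻¹ = y₁ * t * y₁⁻¹
      calc y₁ * t' * y₁⁻¹ = y₁ * y₁ * t * (y₁ * y₁)⁻¹ := by rw [← hy1t']; group
        _ = t' := h
        _ = _ := hy1t'.symm
  -- all transpositions are `t` or `t'`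
  have hTtwo : ∀ w ∈ T, w = t ∨ w = t' := by
    intro w hw
    obtain ⟨g, hg, rfl⟩ := htrans t ht w hw
    obtain ⟨x, hx, y, hy, rfl⟩ := hgen g hg
    rw [show x * y * t * (x * y)⁻¹ = x * (y * t * y⁻¹) * x⁻¹ by group]
    rcases hYorb y hy with h | h
    · rw [h]; exact hXorb x hx
    · rw [h]
      have hyx : x * t' * x⁻¹ = y₁ * (x * t * x⁻¹) * y₁⁻¹ := by
        rw [← hy1t', show x * (y₁ * t * y₁⁻¹) * x⁻¹ = (x * y₁) * t * (x * y₁)⁻¹ by group,
          (hc x hx y₁ hy₁).eq]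
        group
      rw [hyx]
      rcases hXorb x hx with h' | h'
      · rw [h']; exact Or.inr hy1t'
      · rw [h']; exact Or.inl hyt'
  set e := x₀⁻¹ * y₁ with he
  have heW : e ∈ piece P O := mul_mem (inv_mem (hX hx₀)) (hY hy₁)
  have hefix : ∀ w ∈ T, e * w * e⁻¹ = w := by
    intro w hw
    have h1 : e * t * e⁻¹ = t := by
      rw [he, show x₀⁻¹ * y₁ * t * (x₀⁻¹ * y₁)⁻¹ = x₀⁻¹ * (y₁ * t * y₁⁻¹) * x₀ by group, hy1t', ht']
      group
    rcases hTtwo w hw with rfl | rfl
    · exact h1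
    · have hey : Commute e y₁ := (hc x₀ hx₀ y₁ hy₁).inv_left.mul_left (Commute.refl y₁)
      rw [← hy1t', show e * (y₁ * t * y₁⁻¹) * e⁻¹ = (e * y₁) * t * (e * y₁)⁻¹ by group, hey.eq]
      rw [show y₁ * e * t * (y₁ * e)⁻¹ = y₁ * (e * t * e⁻¹) * y₁⁻¹ by group, h1]
  have hx0e : Commute x₀ e := (Commute.refl x₀).inv_right.mul_right (hc x₀ hx₀ y₁ hy₁)
  have hx0t' : x₀ * t' * x₀⁻¹ = t := by
    rcases hXorb (x₀ * x₀) (mul_mem hx₀ hx₀) with h | h
    · calc x₀ * t' * x₀⁻¹ = x₀ * x₀ * t * (x₀ * x₀)⁻¹ := by rw [ht']; group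
        _ = t := h
    · exfalso
      refine hne (MulAut.conj x₀ |>.injective ?_)
      show x₀ * t' * x₀⁻¹ = x₀ * t * x₀⁻¹
      calc x₀ * t' * x₀⁻¹ = x₀ * x₀ * t * (x₀ * x₀)⁻¹ := by rw [ht']; group
        _ = t' := h
        _ = _ := ht'
  -- `e` commutes with the piece
  have hecen : ∀ w ∈ piece P O, Commute e w := by
    intro w hw
    by_cases hwt : w * t * w⁻¹ = t
    · refine hab e heW w hw hefix fun u hu => ?_
      rcases hTtwo u hu with rfl | rfl
      · exact hwt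
      · rcases hTtwo _ (hconjT w hw _ (hconjT x₀ (hX hx₀) t ht)) with h | h
        · exfalso
          refine hne (MulAut.conj w |>.injective ?_)
          show w * t' * w⁻¹ = w * t * w⁻¹
          rw [h, hwt]
        · exact h
    · have hw1 : (x₀⁻¹ * w) * t * (x₀⁻¹ * w)⁻¹ = t := by
        rw [show (x₀⁻¹ * w) * t * (x₀⁻¹ * w)⁻¹ = x₀⁻¹ * (w * t * w⁻¹) * x₀ by group,
          (hTtwo _ (hconjT w hw t ht)).resolve_left hwt, ht']
        group
      have hc1 : Commute e (x₀⁻¹ * w) := by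
        refine hab e heW _ (mul_mem (inv_mem (hX hx₀)) hw) hefix fun u hu => ?_
        rcases hTtwo u hu with rfl | rfl
        · exact hw1
        · rcases hTtwo _ (hconjT _ (mul_mem (inv_mem (hX hx₀)) hw) _ (hconjT x₀ (hX hx₀) t ht)) with h | h
          · exfalso
            refine hne (MulAut.conj (x₀⁻¹ * w) |>.injective ?_)
            show (x₀⁻¹ * w) * t' * (x₀⁻¹ * w)⁻¹ = (x₀⁻¹ * w) * t * (x₀⁻¹ * w)⁻¹
            rw [h, hw1]
          · exact h
      have h3 := hx0e.symm.mul_right hc1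
      rwa [mul_inv_cancel_left] at h3
  -- hence `y₁` is central, but it moves `t`
  refine hy₁t ?_
  obtain ⟨x, hx, y, hy, ht2⟩ := hgen t ht.1
  have hy1y : Commute y₁ y := by
    rw [show y₁ = x₀ * e by rw [he, mul_inv_cancel_left]]
    exact (hc x₀ hx₀ y hy).mul_left (hecen y (hY hy))
  have hcomm : Commute y₁ t := by
    rw [ht2]
    exact ((hc x hx y₁ hy₁).symm).mul_right hy1y
  rw [hcomm.eq, mul_inv_cancel_right]

/-- The even part of `P`. -/
def evenPart (P : Sylow 2 (Perm α)) : Subgroup (Perm α) :=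
  (P : Subgroup (Perm α)) ⊓ alternatingGroup α

/-- Every element of a piece is the restriction of an element of the even part. -/
theorem exists_even_lift {O : Set α} {t' : Perm α}
    (ht' : t' ∈ (P : Subgroup (Perm α))) (hts : t'.IsSwap) (htO : t' ∈ supp Oᶜ) {g : Perm α}
    (hg : g ∈ piece P O) (hi : Inv P O) : ∃ k ∈ evenPart P, restr O k = g := by
  by_cases h : Perm.sign g = 1
  · exact ⟨g, ⟨hg.1, Perm.mem_alternatingGroup.2 h⟩, restr_of_supp hg.2⟩
  · refine ⟨g * t', ⟨mul_mem hg.1 ht', Perm.mem_alternatingGroup.2 ?_⟩, ?_⟩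
    · rw [map_mul, sign_int_eq h, swap_sign hts]; rfl
    · rw [restr_mul (hi g hg.1) (hi t' ht'), restr_of_supp hg.2,
        restr_of_disjoint (Y := Oᶜ) (fun _ hx => Set.notMem_compl_iff.2 hx) (hi t' ht') htO, mul_one]

/-- The central elements of a piece lie in the derived group of the even part. -/
theorem center_le_commutator {O : Set α} (hO : IsOrbit P O) (h4 : 4 ≤ Nat.card O) {t' : Perm α}
    (ht' : t' ∈ (P : Subgroup (Perm α))) (hts : t'.IsSwap) (htO : t' ∈ supp Oᶜ) :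
    piece P O ⊓ centralizer (piece P O : Set (Perm α)) ≤ ⁅evenPart P, evenPart P⁆ := by
  classical
  haveI : Fact (Nat.Prime 2) := ⟨Nat.prime_two⟩
  obtain ⟨x, hx⟩ := hO.nonempty
  obtain ⟨t, ht, hts', -⟩ := exists_swap_at hO (by omega) hx
  obtain ⟨g, hg, hgt⟩ := exists_moved_swap hO h4 ht hts'
  obtain ⟨g', hg', hg's, hgg⟩ : ∃ g' ∈ piece P O, Perm.sign g' = 1 ∧ g' * t * g'⁻¹ = g * t * g⁻¹ := by
    by_cases h : Perm.sign g = 1
    · exact ⟨g, hg, h, rfl⟩
    · refine ⟨g * t, mul_mem hg ht, by rw [map_mul, sign_int_eq h, swap_sign hts']; rfl, ?_⟩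
      rw [show g * t * t * (g * t)⁻¹ = g * (t * t) * t⁻¹ * g⁻¹ by group, swap_inv hts',
        inv_eq_of_mul_eq_one_left (swap_inv hts'), mul_one]
  set K := evenPart P
  have hKn : ∀ p ∈ (P : Subgroup (Perm α)), ∀ k ∈ K, p * k * p⁻¹ ∈ K := fun p hp k hk =>
    Subgroup.mem_inf.2 ⟨mul_mem (mul_mem hp hk.1) (inv_mem hp), (inferInstance : (alternatingGroup α).Normal).conj_mem _ hk.2 p⟩
  set N := ⁅K, K⁆ ⊓ piece P O with hN
  have hw : ⁅g', t * t'⁆ ∈ N := by
    refine Subgroup.mem_inf.2 ⟨commutator_mem_commutator ⟨hg'.1, Perm.mem_alternatingGroup.2 hg's⟩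
      ⟨mul_mem ht.1 ht', Perm.mem_alternatingGroup.2 (by
        rw [map_mul, swap_sign hts', swap_sign hts]; rfl)⟩, ?_⟩
    have hcom : Commute g' t' := supp_commute (fun _ h => Set.notMem_compl_iff.2 h) hg'.2 htO
    rw [commutatorElement_def,
      show g' * (t * t') * g'⁻¹ * (t * t')⁻¹ = g' * t * (t' * g'⁻¹ * t'⁻¹) * t⁻¹ by group,
      show t' * g'⁻¹ * t'⁻¹ = g'⁻¹ by rw [← hcom.inv_left.eq, mul_inv_cancel_right]]
    exact mul_mem (mul_mem (mul_mem hg' ht) (inv_mem hg')) (inv_mem ht)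
  have hwne : ⁅g', t * t'⁆ ≠ 1 := by
    intro h
    have hcom : Commute g' t' := supp_commute (fun _ h => Set.notMem_compl_iff.2 h) hg'.2 htO
    have hc2 : Commute g' (t * t') := commutatorElement_eq_one_iff_mul_comm.1 h
    have hc3 : Commute g' t := by simpa using hc2.mul_right hcom.inv_right
    exact hgt (by rw [← hgg, hc3.eq, mul_inv_cancel_right])
  have hNn : (N.subgroupOf (piece P O)).Normal := by
    refine ⟨fun a ha p => ?_⟩
    rw [mem_subgroupOf] at ha ⊢
    simp only [Subgroup.coe_mul, InvMemClass.coe_inv]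
    refine Subgroup.mem_inf.2 ⟨?_, mul_mem (mul_mem p.2 ha.2) (inv_mem p.2)⟩
    have hle : ⁅K, K⁆.map (MulAut.conj (p : Perm α)).toMonoidHom ≤ ⁅K, K⁆ := by
      rw [map_commutator]
      exact commutator_mono (by rintro _ ⟨k, hk, rfl⟩; exact hKn p p.2.1 k hk)
        (by rintro _ ⟨k, hk, rfl⟩; exact hKn p p.2.1 k hk)
    exact hle ⟨_, ha.1, rfl⟩
  have hne : N.subgroupOf (piece P O) ≠ ⊥ := fun h => hwne (by
    have h1 : (⟨_, hw.2⟩ : piece P O) ∈ N.subgroupOf (piece P O) := mem_subgroupOf.2 hw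
    rw [h, mem_bot] at h1
    exact congrArg Subtype.val h1)
  have hmeet := @PGroup.inf_center_ne_bot _ _ _ _ _ (P.2.to_le (inf_le_left : piece P O ≤ _))
    (N.subgroupOf (piece P O)) hNn hne
  obtain ⟨⟨w, hwm⟩, hw1⟩ := (ne_bot_iff_exists_ne_one.1 hmeet)
  have hwN : ((w : piece P O) : Perm α) ∈ N := mem_subgroupOf.1 hwm.1
  have hwc : ((w : piece P O) : Perm α) ∈ piece P O ⊓ centralizer (piece P O : Set (Perm α)) :=
    ⟨w.2, mem_centralizer_iff.2 fun y hy => congrArg Subtype.val (mem_center_iff.1 hwm.2 ⟨y, hy⟩)⟩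
  have hw1' : ((w : piece P O) : Perm α) ≠ 1 := fun h => hw1 (Subtype.ext (Subtype.ext h))
  intro z hz
  by_cases hz1 : z = 1
  · exact hz1 ▸ one_mem _
  by_cases hzw : z = w
  · exact hzw ▸ hwN.1
  exfalso
  let f : Fin 3 → ↥(piece P O ⊓ centralizer (piece P O : Set (Perm α))) := ![1, ⟨z, hz⟩, ⟨_, hwc⟩]
  have hf : Function.Injective f := inj_three (fun h => hz1 (congrArg Subtype.val h).symm) (fun h => hw1' (congrArg Subtype.val h).symm) (fun h => hzw (congrArg Subtype.val h))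
  have := (Nat.card_le_card_of_injective f hf).trans (center_piece_card hO)
  rw [Nat.card_fin] at this
  omega

/-- The orbits of size one act trivially. -/
theorem restr_eq_one_of_card_one {O : Set α} (hO : IsOrbit P O) (h : Nat.card O = 1) {g : Perm α}
    (hg : g ∈ (P : Subgroup (Perm α))) : restr O g = 1 := by
  haveI := (Nat.card_eq_one_iff_unique.1 h).1
  refine supp_ext (restr_mem_supp _ _) (one_mem _) fun x hx => ?_
  rw [restr_apply (hO.inv g hg) hx]
  exact congrArg Subtype.val (Subsingleton.elim (⟨g x, (hO.inv g hg x).2 hx⟩ : O) ⟨x, hx⟩)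

theorem indecomposable_multi (hsmall : ∀ O, IsOrbit P O → Nat.card O = 1 ∨ 4 ≤ Nat.card O)
    (hmany : ∀ O, IsOrbit P O → ∃ O', IsOrbit P O' ∧ O' ≠ O ∧ 4 ≤ Nat.card O') {A B : Subgroup (Perm α)}
    (h : Cfsg.IsInternalDirectProduct A B (evenPart P)) : A = ⊥ ∨ B = ⊥ := by
  classical
  obtain ⟨hA, hB, hcomm, hd, hsup⟩ := h
  set K := evenPart P with hK
  have partner : ∀ O, IsOrbit P O → ∃ t', t' ∈ (P : Subgroup (Perm α)) ∧ t'.IsSwap ∧ t' ∈ supp Oᶜ := by
    intro O hO
    obtain ⟨O', hO', hne, h4⟩ := hmany O hO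
    obtain ⟨x, hx⟩ := hO'.nonempty
    obtain ⟨t', ht', hts, -⟩ := exists_swap_at hO' (by omega) hx
    exact ⟨t', ht'.1, hts, supp_mono (fun y hy => hO'.disjoint hO hne y hy) ht'.2⟩
  have hdec : ∀ k ∈ K, ∃ a ∈ A, ∃ b ∈ B, k = a * b := by
    intro k hk
    rw [← hsup] at hk
    have hn : B ≤ normalizer (A : Set (Perm α)) := fun b hb => by
      rw [mem_normalizer_iff]
      intro a
      constructor
      · intro ha
        rw [← hcomm a ha b hb, mul_inv_cancel_right]; exact ha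
      · intro ha
        have h1 := hcomm _ ha b hb
        have : a = b * a * b⁻¹ := by
          calc a = b⁻¹ * ((b * a * b⁻¹) * b) := by group
            _ = b⁻¹ * (b * (b * a * b⁻¹)) := by rw [h1]
            _ = _ := by group
        exact this ▸ ha
    have hk' : k ∈ (↑(A ⊔ B) : Set (Perm α)) := hk
    rw [coe_mul_of_right_le_normalizer_left A B hn] at hk'
    obtain ⟨a, ha, b, hb, rfl⟩ := hk'
    exact ⟨a, ha, b, hb, rfl⟩
  have hpg : ∀ C : Subgroup (Perm α), C ≤ K → C ≤ (P : Subgroup (Perm α)) := fun C hC => hC.trans inf_le_left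
  let img : (O : Set α) → Inv P O → (C : Subgroup (Perm α)) → Subgroup (Perm α) := fun O hi C =>
    (C.subgroupOf (P : Subgroup (Perm α))).map (restrHom hi)
  have himg : ∀ O (hi : Inv P O) C, C ≤ (P : Subgroup (Perm α)) → ∀ y, y ∈ img O hi C ↔ ∃ c ∈ C, restr O c = y := by
    intro O hi C hC y
    constructor
    · rintro ⟨c, hc, rfl⟩; exact ⟨c, mem_subgroupOf.1 hc, rfl⟩
    · rintro ⟨c, hc, rfl⟩; exact ⟨⟨c, hC hc⟩, mem_subgroupOf.2 hc, rfl⟩
  -- each piece: one side is central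
  have horall : ∀ O, IsOrbit P O →
      (∀ a ∈ A, restr O a ∈ piece P O ⊓ centralizer (piece P O : Set (Perm α))) ∨
      (∀ b ∈ B, restr O b ∈ piece P O ⊓ centralizer (piece P O : Set (Perm α))) := by
    intro O hO
    rcases hsmall O hO with h1 | h4
    · exact Or.inl fun a ha => by rw [restr_eq_one_of_card_one hO h1 (hpg A hA ha)]; exact one_mem _
    obtain ⟨t', ht', hts, htO⟩ := partner O hO
    have hX : ∀ C, C ≤ K → img O hO.inv C ≤ piece P O := by
      intro C hC y hy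
      obtain ⟨c, hc, rfl⟩ := (himg O hO.inv C (hpg C hC) y).1 hy
      exact restr_mem_piece hO.inv (hpg C hC hc)
    have hc' : ∀ x ∈ img O hO.inv A, ∀ y ∈ img O hO.inv B, Commute x y := by
      intro x hx y hy
      obtain ⟨a, ha, rfl⟩ := (himg O hO.inv A (hpg A hA) x).1 hx
      obtain ⟨b, hb, rfl⟩ := (himg O hO.inv B (hpg B hB) y).1 hy
      show restr O a * restr O b = restr O b * restr O a
      rw [← restr_mul (hO.inv a (hpg A hA ha)) (hO.inv b (hpg B hB hb)),
        ← restr_mul (hO.inv b (hpg B hB hb)) (hO.inv a (hpg A hA ha)), hcomm a ha b hb]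
    have hg' : ∀ g ∈ piece P O, ∃ x ∈ img O hO.inv A, ∃ y ∈ img O hO.inv B, g = x * y := by
      intro g hg
      obtain ⟨k, hk, rfl⟩ := exists_even_lift ht' hts htO hg hO.inv
      obtain ⟨a, ha, b, hb, rfl⟩ := hdec k hk
      exact ⟨_, (himg O hO.inv A (hpg A hA) _).2 ⟨a, ha, rfl⟩, _,
        (himg O hO.inv B (hpg B hB) _).2 ⟨b, hb, rfl⟩,
        restr_mul (hO.inv a (hpg A hA ha)) (hO.inv b (hpg B hB hb))⟩
    rcases central_or hO (by omega) _ _ (hX A hA) (hX B hB) hc' hg' with hh | hh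
    · exact Or.inl fun a ha => ⟨restr_mem_piece hO.inv (hpg A hA ha),
        hh ((himg O hO.inv A (hpg A hA) _).2 ⟨a, ha, rfl⟩)⟩
    · exact Or.inr fun b hb => ⟨restr_mem_piece hO.inv (hpg B hB hb),
        hh ((himg O hO.inv B (hpg B hB) _).2 ⟨b, hb, rfl⟩)⟩
  have hKc : ∀ O, IsOrbit P O → ∀ z ∈ piece P O ⊓ centralizer (piece P O : Set (Perm α)),
      z ∈ ⁅K, K⁆ := by
    intro O hO z hz
    rcases hsmall O hO with h1 | h4
    · have := restr_eq_one_of_card_one hO h1 hz.1.1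
      rw [restr_of_supp hz.1.2] at this
      rw [this]; exact one_mem _
    · obtain ⟨t', ht', hts, htO⟩ := partner O hO
      exact center_le_commutator hO h4 ht' hts htO hz
  have hKK : ⁅K, K⁆ ≤ K := commutator_le_self K
  -- a factor that is central everywhere is trivial
  have finish : ∀ C D : Subgroup (Perm α), C ≤ K → D ≤ K → (∀ x ∈ C, ∀ y ∈ D, x * y = y * x) →
      C ⊓ D = ⊥ → (∀ k ∈ K, ∃ a ∈ C, ∃ b ∈ D, k = a * b) →
      (∀ O, IsOrbit P O → ∀ b ∈ D, restr O b ∈ piece P O ⊓ centralizer (piece P O : Set (Perm α))) →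
      D = ⊥ := by
    intro C D hC hD hCD hdisj hgen hcen
    have hDc : ∀ b ∈ D, ∀ p ∈ (P : Subgroup (Perm α)), Commute b p := by
      intro b hb p hp
      refine commutatorElement_eq_one_iff_mul_comm.1 (mem_bot.1 (mem_of_local (P := P) ⊥ ?_ fun O hO => ?_))
      · rw [commutatorElement_def]
        exact mul_mem (mul_mem (mul_mem (hpg D hD hb) hp) (inv_mem (hpg D hD hb))) (inv_mem hp)
      · show restrHom hO.inv ⁅(⟨b, hpg D hD hb⟩ : (P : Subgroup (Perm α))), ⟨p, hp⟩⁆ ∈ ⊥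
        rw [map_commutatorElement, mem_bot, commutatorElement_eq_one_iff_mul_comm]
        exact (mem_centralizer_iff.1 (hcen O hO b hb).2 _ (restr_mem_piece hO.inv hp)).symm
    have hCK : ⁅K, K⁆ ≤ C := by
      rw [commutator_le]
      intro u hu v hv
      obtain ⟨a, ha, b, hb, rfl⟩ := hgen u hu
      obtain ⟨c, hc, d, hd', rfl⟩ := hgen v hv
      have e1 : Commute b (c * d) := hDc b hb _ (mul_mem (hpg C hC hc) (hpg D hD hd'))
      have e2 : Commute d a := hDc d hd' a (hpg C hC ha)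
      rw [show ⁅a * b, c * d⁆ = a * (b * (c * d) * b⁻¹) * a⁻¹ * (c * d)⁻¹ by
        rw [commutatorElement_def]; group, e1.eq, mul_inv_cancel_right,
        show a * (c * d) * a⁻¹ * (c * d)⁻¹ = a * c * (d * a⁻¹ * d⁻¹) * c⁻¹ by group,
        e2.inv_right.eq, mul_inv_cancel_right]
      exact mul_mem (mul_mem (mul_mem ha hc) (inv_mem ha)) (inv_mem hc)
    rw [eq_bot_iff]
    intro b hb
    have hbC : b ∈ C := mem_of_local C (hpg D hD hb) fun O hO => hCK (hKc O hO _ (hcen O hO b hb))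
    exact hdisj.le ⟨hbC, hb⟩
  by_cases hBall : ∀ O, IsOrbit P O → ∀ b ∈ B, restr O b ∈ piece P O ⊓ centralizer (piece P O : Set (Perm α))
  · exact Or.inr (finish A B hA hB hcomm hd hdec hBall)
  by_cases hAall : ∀ O, IsOrbit P O → ∀ a ∈ A, restr O a ∈ piece P O ⊓ centralizer (piece P O : Set (Perm α))
  · refine Or.inl (finish B A hB hA (fun x hx y hy => (hcomm y hy x hx).symm) (inf_comm A B ▸ hd) ?_ hAall)
    intro k hk
    obtain ⟨a, ha, b, hb, rfl⟩ := hdec k hk
    exact ⟨b, hb, a, ha, hcomm a ha b hb⟩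
  exfalso
  push Not at hBall hAall
  obtain ⟨O₁, hO₁, b₁, hb₁, hnb⟩ := hBall
  obtain ⟨O₂, hO₂, a₂, ha₂, hna⟩ := hAall
  have hA1 := (horall O₁ hO₁).resolve_right fun h => hnb (h b₁ hb₁)
  have hB2 := (horall O₂ hO₂).resolve_left fun h => hna (h a₂ ha₂)
  have hne : O₁ ≠ O₂ := fun h => hnb (h ▸ hB2 b₁ hb₁)
  have h41 : 4 ≤ Nat.card O₁ := by
    rcases hsmall O₁ hO₁ with h | h
    · exact absurd (by rw [restr_eq_one_of_card_one hO₁ h (hpg B hB hb₁)]; exact one_mem _) hnb
    · exact h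
  have h42 : 4 ≤ Nat.card O₂ := by
    rcases hsmall O₂ hO₂ with h | h
    · exact absurd (by rw [restr_eq_one_of_card_one hO₂ h (hpg A hA ha₂)]; exact one_mem _) hna
    · exact h
  obtain ⟨x, hx⟩ := hO₁.nonempty
  obtain ⟨y, hy⟩ := hO₂.nonempty
  obtain ⟨t₁, ht₁, hs₁, -⟩ := exists_swap_at hO₁ (by omega) hx
  obtain ⟨t₂, ht₂, hs₂, -⟩ := exists_swap_at hO₂ (by omega) hy
  obtain ⟨a, ha, b, hb, he⟩ := hdec (t₁ * t₂) ⟨mul_mem ht₁.1 ht₂.1, Perm.mem_alternatingGroup.2 (by
    rw [map_mul, swap_sign hs₁, swap_sign hs₂]; rfl)⟩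
  have haP := hpg A hA ha
  have hbP := hpg B hB hb
  have heven : ∀ O, IsOrbit P O → ∀ z ∈ piece P O ⊓ centralizer (piece P O : Set (Perm α)),
      z ∈ alternatingGroup α := fun O hO z hz => (hKK (hKc O hO z hz)).2
  set r := restr O₁ b with hr
  have hr1 : Perm.sign r = -1 := by
    have h1 : restr O₁ (t₁ * t₂) = t₁ := by
      rw [restr_mul (hO₁.inv _ ht₁.1) (hO₁.inv _ ht₂.1), restr_of_supp ht₁.2,
        restr_of_disjoint (hO₁.disjoint hO₂ hne) (hO₁.inv _ ht₂.1) ht₂.2, mul_one]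
    rw [he, restr_mul (hO₁.inv _ haP) (hO₁.inv _ hbP)] at h1
    have h2 := congrArg (Perm.sign (α := α)) h1
    rw [map_mul, Perm.mem_alternatingGroup.1 (heven O₁ hO₁ _ (hA1 a ha)), one_mul, swap_sign hs₁] at h2
    exact h2
  have hrest : b * r⁻¹ ∈ alternatingGroup α := by
    have hrP : r ∈ (P : Subgroup (Perm α)) := restr_mem hO₁.inv hbP
    refine mem_of_local _ (mul_mem hbP (inv_mem hrP)) fun O hO => ?_
    have e : restr O (b * r⁻¹) = restr O b * (restr O r)⁻¹ := by
      rw [restr_mul (hO.inv _ hbP) (hO.inv _ (inv_mem hrP))]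
      congr 1
      exact map_inv (restrHom hO.inv) ⟨r, hrP⟩
    rw [e]
    by_cases h1 : O = O₁
    · subst h1
      rw [show restr O r = r from restr_of_supp (restr_mem_supp _ _), ← hr, mul_inv_cancel]
      exact one_mem _
    rw [restr_of_disjoint (hO.disjoint hO₁ h1) (hO.inv _ hrP) (restr_mem_supp _ _), inv_one, mul_one]
    by_cases h2 : O = O₂
    · subst h2; exact heven _ hO _ (hB2 b hb)
    rcases horall O hO with hcA | hcB
    · have h3 : restr O (t₁ * t₂) = 1 := by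
        rw [restr_mul (hO.inv _ ht₁.1) (hO.inv _ ht₂.1),
          restr_of_disjoint (hO.disjoint hO₁ h1) (hO.inv _ ht₁.1) ht₁.2,
          restr_of_disjoint (hO.disjoint hO₂ h2) (hO.inv _ ht₂.1) ht₂.2, mul_one]
      rw [he, restr_mul (hO.inv _ haP) (hO.inv _ hbP), mul_eq_one_iff_inv_eq] at h3
      rw [← h3]
      exact inv_mem (heven _ hO _ (hcA a ha))
    · exact heven _ hO _ (hcB b hb)
  have hbs := Perm.mem_alternatingGroup.1 (hB hb).2
  rw [Perm.mem_alternatingGroup, map_mul, map_inv, hr1, hbs, one_mul] at hrest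
  exact absurd hrest (by decide)

theorem indecomposable_single {O : Set α} (hO : IsOrbit P O) (h8 : 4 < Nat.card O)
    (hother : ∀ O', IsOrbit P O' → O' ≠ O → Nat.card O' = 1) {A B : Subgroup (Perm α)}
    (h : Cfsg.IsInternalDirectProduct A B (evenPart P)) : A = ⊥ ∨ B = ⊥ := by
  classical
  haveI : Fact (Nat.Prime 2) := ⟨Nat.prime_two⟩
  have hsupp : ∀ g ∈ (P : Subgroup (Perm α)), g ∈ supp O := fun g hg => by
    refine mem_of_local (supp O) hg fun O' hO' => ?_
    by_cases h' : O' = O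
    · exact h' ▸ restr_mem_supp _ _
    · rw [restr_eq_one_of_card_one hO' (hother O' hO' h') hg]; exact one_mem _
  have hKp : IsPGroup 2 (evenPart P) := P.2.to_le inf_le_left
  have hKO : evenPart P ≤ piece P O := fun g hg => ⟨hg.1, hsupp g hg.1⟩
  obtain ⟨x, hx⟩ := hO.nonempty
  obtain ⟨t, ht, hts, -⟩ := exists_swap_at hO (by omega) hx
  obtain ⟨g, hg, hgt⟩ := exists_moved_swap hO (by omega) ht hts
  set u := g * t * g⁻¹ with hu
  have htu : u ∈ piece P O := mul_mem (mul_mem hg ht) (inv_mem hg)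
  have hidx : Nat.card (piece P O) ≤ 2 * Nat.card (evenPart P) := by
    let f : piece P O → Bool × evenPart P := fun w =>
      if hw : Perm.sign (w : Perm α) = 1 then (false, ⟨w, w.2.1, Perm.mem_alternatingGroup.2 hw⟩)
      else (true, ⟨(w : Perm α) * t, mul_mem w.2.1 ht.1, Perm.mem_alternatingGroup.2 (by
        rw [map_mul, sign_int_eq hw, swap_sign hts]; rfl)⟩)
    have hf : Function.Injective f := by
      intro a b hab
      simp only [f] at hab
      split_ifs at hab with ha hb hb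
      · exact Subtype.ext (congrArg (fun p : Bool × evenPart P => (p.2 : Perm α)) hab)
      · simp at hab
      · simp at hab
      · exact Subtype.ext (mul_right_cancel (congrArg (fun p : Bool × evenPart P => (p.2 : Perm α)) hab))
    have h1 := Nat.card_le_card_of_injective f hf
    rwa [Nat.card_prod, Nat.card_eq_fintype_card (α := Bool), Fintype.card_bool] at h1
  refine indecomposable_of_center hKp ?_ h
  refine central_card_le (H := evenPart P) (s := 1) (hKO.trans inf_le_right) hKp ?_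
    ((by rw [pow_one, ← card_piece hO.inv]; exact hidx)) (by omega)
    (inf_le_left.trans (hKO.trans inf_le_right)) (hKp.to_le inf_le_left)
    (fun z hz k hk => (mem_centralizer_iff.1 hz.2 k hk).symm)
  intro a ha b hb
  obtain ⟨w, hw, hwa⟩ := hO.transitive ha hb
  by_cases hws : Perm.sign w = 1
  · exact ⟨w, ⟨hw.1, Perm.mem_alternatingGroup.2 hws⟩, hwa⟩
  -- a transposition fixing `a`
  obtain ⟨s, hs, hss, hsa⟩ : ∃ s ∈ piece P O, s.IsSwap ∧ s a = a := by
    by_cases h1 : t a = a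
    · exact ⟨t, ht, hts, h1⟩
    · refine ⟨u, htu, conj_isSwap hts g, ?_⟩
      by_contra h2
      exact hgt (swap_eq_of_common htu.1 ht.1 (conj_isSwap hts g) hts h2 h1)
  refine ⟨w * s, ⟨mul_mem hw.1 hs.1, Perm.mem_alternatingGroup.2 ?_⟩, ?_⟩
  · rw [map_mul, sign_int_eq hws, swap_sign hss]; rfl
  · rw [Perm.mul_apply, hsa, hwa]

theorem piece_two {O : Set α} (hO : IsOrbit P O) (h2 : Nat.card O = 2) :
    ∃ t ∈ piece P O, t.IsSwap ∧ (∀ g ∈ piece P O, g = 1 ∨ g = t) ∧
      ∀ p ∈ (P : Subgroup (Perm α)), Commute t p := by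
  classical
  obtain ⟨x, hx⟩ := hO.nonempty
  obtain ⟨t, ht, hts, -⟩ := exists_swap_at hO (by omega) hx
  have ht1 : t ≠ 1 := fun h => by have := swap_sign hts; rw [h, map_one] at this; exact absurd this (by decide)
  have hcard : Nat.card (piece P O) = 2 := by
    rw [card_piece hO.inv, h2, NilPerm.v_eq 2 (show 2 < 2 ^ 2 by norm_num)]
    simp [Finset.sum_Ico_succ_top]
  have hall : ∀ g ∈ piece P O, g = 1 ∨ g = t := by
    intro g hg
    by_contra! hne
    let f : Fin 3 → piece P O := ![1, ⟨t, ht⟩, ⟨g, hg⟩]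
    have hf : Function.Injective f := inj_three (fun h => ht1 (congrArg Subtype.val h).symm) (fun h => hne.1 (congrArg Subtype.val h).symm) (fun h => hne.2 (congrArg Subtype.val h).symm)
    have := Nat.card_le_card_of_injective f hf
    rw [Nat.card_fin, hcard] at this
    omega
  refine ⟨t, ht, hts, hall, fun p hp => ?_⟩
  rcases hall _ (conj_mem_piece hO.inv hp ht) with h | h
  · exfalso
    refine ht1 ?_
    calc t = p⁻¹ * (p * t * p⁻¹) * p := by group
      _ = 1 := by rw [h]; group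
  · exact (mul_inv_eq_iff_eq_mul.1 h).symm

theorem decomposable_of_two {O₁ O₂ S : Set α} (h₁ : IsOrbit P O₁) (h₂ : IsOrbit P O₂)
    (hS : IsOrbit P S) (hne : O₁ ≠ O₂) (h2 : Nat.card S = 2) (h41 : 4 ≤ Nat.card O₁)
    (h42 : 4 ≤ Nat.card O₂) :
    ∃ A B : Subgroup (Perm α), A ≠ ⊥ ∧ B ≠ ⊥ ∧ Cfsg.IsInternalDirectProduct A B (evenPart P) := by
  classical
  obtain ⟨t, ht, hts, hall, htc⟩ := piece_two hS h2
  have hS1 : O₁ ≠ S := fun h => by rw [h] at h41; omega
  have hS2 : O₂ ≠ S := fun h => by rw [h] at h42; omega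
  refine ⟨evenPart P ⊓ supp (O₁ ∪ S), evenPart P ⊓ supp O₁ᶜ, ?_, ?_, inf_le_left, inf_le_left,
    ?_, ?_, ?_⟩
  · obtain ⟨x, hx⟩ := h₁.nonempty
    obtain ⟨u, hu, hus, -⟩ := exists_swap_at h₁ (by omega) hx
    intro h
    have hmem : u * t ∈ evenPart P ⊓ supp (O₁ ∪ S) :=
      ⟨⟨mul_mem hu.1 ht.1, Perm.mem_alternatingGroup.2 (by rw [map_mul, swap_sign hus, swap_sign hts]; rfl)⟩,
        mul_mem (supp_mono Set.subset_union_left hu.2) (supp_mono Set.subset_union_right ht.2)⟩
    rw [h, mem_bot] at hmem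
    have h1 := congrArg (restr O₁) hmem
    rw [restr_mul (h₁.inv _ hu.1) (h₁.inv _ ht.1), restr_of_supp hu.2,
      restr_of_disjoint (h₁.disjoint hS hS1) (h₁.inv _ ht.1) ht.2, mul_one, restr_one] at h1
    have := swap_sign hus
    rw [h1, map_one] at this
    exact absurd this (by decide)
  · obtain ⟨x, hx⟩ := h₂.nonempty
    obtain ⟨u, hu, hus, -⟩ := exists_swap_at h₂ (by omega) hx
    intro h
    have hmem : u * t ∈ evenPart P ⊓ supp O₁ᶜ :=
      ⟨⟨mul_mem hu.1 ht.1, Perm.mem_alternatingGroup.2 (by rw [map_mul, swap_sign hus, swap_sign hts]; rfl)⟩,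
        mul_mem (supp_mono (fun y hy => h₂.disjoint h₁ hne.symm y hy) hu.2)
          (supp_mono (fun y hy => hS.disjoint h₁ hS1.symm y hy) ht.2)⟩
    rw [h, mem_bot] at hmem
    have h1 := congrArg (restr O₂) hmem
    rw [restr_mul (h₂.inv _ hu.1) (h₂.inv _ ht.1), restr_of_supp hu.2,
      restr_of_disjoint (h₂.disjoint hS hS2) (h₂.inv _ ht.1) ht.2, mul_one, restr_one] at h1
    have := swap_sign hus
    rw [h1, map_one] at this
    exact absurd this (by decide)
  · intro a ha b hb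
    have haP : a ∈ (P : Subgroup (Perm α)) := ha.1.1
    have hsplit : a = restr O₁ a * restr S a := by
      refine supp_ext ha.2 (mul_mem (supp_mono Set.subset_union_left (restr_mem_supp _ _))
        (supp_mono Set.subset_union_right (restr_mem_supp _ _))) fun y hy => ?_
      rw [Perm.mul_apply]
      rcases hy with hy | hy
      · rw [restr_mem_supp S a y (h₁.disjoint hS hS1 y hy), restr_apply (h₁.inv a haP) hy]
      · rw [restr_apply (hS.inv a haP) hy,
          restr_mem_supp O₁ a _ (hS.disjoint h₁ hS1.symm _ ((hS.inv a haP y).2 hy))]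
    have c1 : Commute (restr O₁ a) b :=
      supp_commute (fun _ h => Set.notMem_compl_iff.2 h) (restr_mem_supp _ _) hb.2
    have c2 : Commute (restr S a) b := by
      rcases hall _ (restr_mem_piece hS.inv haP) with h | h <;> rw [h]
      · exact Commute.one_left b
      · exact htc b hb.1.1
    rw [hsplit]
    exact (c1.mul_left c2).eq
  · rw [eq_bot_iff]
    intro g hg
    have hgS : g ∈ piece P S := ⟨hg.1.1.1, fun y hy => by
      by_cases h1 : y ∈ O₁
      · exact hg.2.2 y (Set.notMem_compl_iff.2 h1)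
      · exact hg.1.2 y (fun h => h.elim h1 hy)⟩
    rcases hall g hgS with h | h
    · exact h
    · have h3 := Perm.mem_alternatingGroup.1 hg.1.1.2
      rw [h, swap_sign hts] at h3
      exact absurd h3 (by decide)
  · refine le_antisymm (sup_le inf_le_left inf_le_left) fun g hg => ?_
    have hgP : g ∈ (P : Subgroup (Perm α)) := hg.1
    set r := restr O₁ g with hr
    have hrP := restr_mem_piece h₁.inv hgP
    obtain ⟨a, ha, haO⟩ : ∃ a ∈ evenPart P ⊓ supp (O₁ ∪ S), restr O₁ a = r := by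
      by_cases hs : Perm.sign r = 1
      · exact ⟨r, ⟨⟨hrP.1, Perm.mem_alternatingGroup.2 hs⟩, supp_mono Set.subset_union_left hrP.2⟩,
          restr_of_supp hrP.2⟩
      · refine ⟨r * t, ⟨⟨mul_mem hrP.1 ht.1, Perm.mem_alternatingGroup.2 (by
          rw [map_mul, sign_int_eq hs, swap_sign hts]; rfl)⟩,
          mul_mem (supp_mono Set.subset_union_left hrP.2) (supp_mono Set.subset_union_right ht.2)⟩, ?_⟩
        rw [restr_mul (h₁.inv _ hrP.1) (h₁.inv _ ht.1), restr_of_supp hrP.2,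
          restr_of_disjoint (h₁.disjoint hS hS1) (h₁.inv _ ht.1) ht.2, mul_one]
    have hb : a⁻¹ * g ∈ evenPart P ⊓ supp O₁ᶜ := by
      refine Subgroup.mem_inf.2 ⟨mul_mem (inv_mem ha.1) hg, fun y hy => ?_⟩
      have hy' : y ∈ O₁ := not_not.1 hy
      rw [Perm.mul_apply, Perm.inv_eq_iff_eq, ← restr_apply (h₁.inv a ha.1.1) hy',
        ← restr_apply (h₁.inv g hgP) hy', haO]
    rw [show g = a * (a⁻¹ * g) by rw [mul_inv_cancel_left]]
    exact mul_mem (mem_sup_left ha) (mem_sup_right hb)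

theorem indecomposable_two_small {O S : Set α} (hO : IsOrbit P O) (hS : IsOrbit P S)
    (hne : O ≠ S) (h2 : Nat.card S = 2)
    (hother : ∀ O', IsOrbit P O' → O' ≠ O → O' ≠ S → Nat.card O' = 1) {A B : Subgroup (Perm α)}
    (h : Cfsg.IsInternalDirectProduct A B (evenPart P)) : A = ⊥ ∨ B = ⊥ := by
  classical
  obtain ⟨t, ht, hts, hall, -⟩ := piece_two hS h2
  have htO : t ∈ supp Oᶜ := supp_mono (fun y hy => hS.disjoint hO hne.symm y hy) ht.2
  refine indecomposable_of_center (P.2.to_le inf_le_left) ?_ h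
  let f : ↥(evenPart P ⊓ centralizer (evenPart P : Set (Perm α))) →
      ↥(piece P O ⊓ centralizer (piece P O : Set (Perm α))) := fun z =>
    ⟨restr O z, restr_mem_piece hO.inv z.2.1.1, mem_centralizer_iff.2 fun y hy => by
      obtain ⟨k, hk, rfl⟩ := exists_even_lift ht.1 hts htO hy hO.inv
      rw [← restr_mul (hO.inv _ hk.1) (hO.inv _ z.2.1.1),
        ← restr_mul (hO.inv _ z.2.1.1) (hO.inv _ hk.1), mem_centralizer_iff.1 z.2.2 k hk]⟩
  refine (Nat.card_le_card_of_injective f ?_).trans (center_piece_card hO)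
  intro a b hab
  have hP1 : ((a : Perm α))⁻¹ * b ∈ (P : Subgroup (Perm α)) := mul_mem (inv_mem a.2.1.1) b.2.1.1
  have hsupp : ((a : Perm α))⁻¹ * b ∈ supp S := by
    refine mem_of_local _ hP1 fun O' hO' => ?_
    by_cases h1 : O' = O
    · subst h1
      show restrHom hO'.inv ((⟨a, a.2.1.1⟩ : (P : Subgroup (Perm α)))⁻¹ * ⟨b, b.2.1.1⟩) ∈ _
      rw [map_mul, map_inv]
      have e : restr O' (a : Perm α) = restr O' (b : Perm α) := congrArg Subtype.val hab
      show (restr O' (a : Perm α))⁻¹ * restr O' (b : Perm α) ∈ _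
      rw [e, inv_mul_cancel]; exact one_mem _
    · by_cases h2' : O' = S
      · subst h2'; exact restr_mem_supp _ _
      · rw [restr_eq_one_of_card_one hO' (hother O' hO' h1 h2') hP1]; exact one_mem _
  rcases hall _ ⟨hP1, hsupp⟩ with h' | h'
  · exact Subtype.ext (inv_mul_eq_one.1 h')
  · exfalso
    have h3 : ((a : Perm α))⁻¹ * b ∈ alternatingGroup α := mul_mem (inv_mem a.2.1.2) b.2.1.2
    rw [Perm.mem_alternatingGroup, h', swap_sign hts] at h3
    exact absurd h3 (by decide)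

theorem sum_two_pow_ne {s : Finset ℕ} (hs : 2 ≤ s.card) (r : ℕ) : ∑ k ∈ s, 2 ^ k ≠ 2 ^ r := by
  intro h
  have h1 : s.Nonempty := Finset.card_pos.1 (by omega)
  set M := s.max' h1 with hM
  have hMs : M ∈ s := s.max'_mem h1
  obtain ⟨j, hj, hjM⟩ := Finset.exists_mem_ne hs M
  have hgt : 2 ^ M < ∑ k ∈ s, 2 ^ k :=
    Finset.single_lt_sum hjM hMs hj (by positivity) fun _ _ _ => Nat.zero_le _
  have hsub : s ⊆ Finset.range (M + 1) := fun k hk =>
    Finset.mem_range.2 (Nat.lt_succ_of_le (s.le_max' k hk))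
  have hlt : ∑ k ∈ s, 2 ^ k < 2 ^ (M + 1) :=
    lt_of_le_of_lt (Finset.sum_le_sum_of_subset hsub) (Nat.geomSum_lt le_rfl fun k hk => Finset.mem_range.1 hk)
  rw [h] at hgt hlt
  have a1 := (Nat.pow_lt_pow_iff_right (show 1 < 2 by norm_num)).1 hgt
  have a2 := (Nat.pow_lt_pow_iff_right (show 1 < 2 by norm_num)).1 hlt
  omega

/-- The criterion. -/
theorem decomposable_iff (P : Sylow 2 (Perm α)) (hn : 6 ≤ Fintype.card α) :
    (∃ A B : Subgroup (Perm α), A ≠ ⊥ ∧ B ≠ ⊥ ∧ Cfsg.IsInternalDirectProduct A B (evenPart P)) ↔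
      ((Fintype.card α % 4 = 2 ∨ Fintype.card α % 4 = 3) ∧
        ∀ r : ℕ, 4 * (Fintype.card α / 4) ≠ 2 ^ r) := by
  classical
  set n := Fintype.card α with hndef
  let Os : Finset (Set α) := Finset.univ.image (orb P)
  have hOs : ∀ O, O ∈ Os ↔ IsOrbit P O := fun O => by
    simp only [Os, Finset.mem_image, Finset.mem_univ, true_and, IsOrbit, eq_comm]
  have hsum : n = ∑ O ∈ Os, Nat.card O := by
    rw [hndef, ← Finset.card_univ, Finset.card_eq_sum_card_fiberwise (f := orb P) (t := Os)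
      (fun x _ => (hOs _).2 ⟨x, rfl⟩)]
    refine Finset.sum_congr rfl fun O hO => ?_
    rw [Nat.card_eq_fintype_card, Fintype.card_subtype]
    congr 1
    ext y
    simp only [Finset.mem_filter, Finset.mem_univ, true_and]
    exact ⟨fun h => h ▸ mem_orb_self y, fun h => (((hOs O).1 hO).eq_orb h).symm⟩
  set big := Os.filter fun O : Set α => 4 ≤ Nat.card O with hbig
  set small := Os.filter fun O : Set α => ¬ 4 ≤ Nat.card O with hsmall
  have hsplit : n = (∑ O ∈ big, Nat.card O) + ∑ O ∈ small, Nat.card O := by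
    rw [hsum]; exact (Finset.sum_filter_add_sum_filter_not _ _ _).symm
  have hsm : ∀ O ∈ small, Nat.card O = 1 ∨ Nat.card O = 2 := by
    intro O hO
    rw [hsmall, Finset.mem_filter, hOs] at hO
    obtain ⟨k, hk⟩ := hO.1.card_eq_two_pow
    have : k ≤ 1 := by
      by_contra h
      exact hO.2 (hk ▸ (Nat.pow_le_pow_right two_pos (show 2 ≤ k by omega)))
    interval_cases k <;> rw [hk] <;> norm_num
  have hinj : Set.InjOn (fun O : Set α => Nat.card O) (Os : Set (Set α)) := fun O hO O' hO' h =>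
    orbit_card_injective ((hOs O).1 hO) ((hOs O').1 hO') h
  have hsmsum : ∑ O ∈ small, Nat.card O = ∑ k ∈ small.image (fun O : Set α => Nat.card O), k := by
    rw [Finset.sum_image fun O hO O' hO' h => hinj (Finset.filter_subset _ _ hO) (Finset.filter_subset _ _ hO') h]
  have hsmimg : small.image (fun O : Set α => Nat.card O) ⊆ {1, 2} := fun k hk => by
    obtain ⟨O, hO, rfl⟩ := Finset.mem_image.1 hk
    rcases hsm O hO with h | h <;> rw [h] <;> simp
  have hbigdvd : ∀ O ∈ big, ∃ k, 2 ≤ k ∧ Nat.card O = 2 ^ k := by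
    intro O hO
    rw [hbig, Finset.mem_filter, hOs] at hO
    obtain ⟨k, hk⟩ := hO.1.card_eq_two_pow
    refine ⟨k, ?_, hk⟩
    by_contra h
    have := hO.2
    rw [hk] at this
    interval_cases k <;> simp at this
  have hb4 : 4 ∣ ∑ O ∈ big, Nat.card O := Finset.dvd_sum fun O hO => by
    obtain ⟨k, hk, he⟩ := hbigdvd O hO
    rw [he]
    exact (by norm_num : (4 : ℕ) = 2 ^ 2) ▸ pow_dvd_pow 2 hk
  have hsb : ∑ O ∈ small, Nat.card O ≤ 3 := by
    rw [hsmsum]
    refine (Finset.sum_le_sum_of_subset hsmimg).trans ?_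
    simp
  have hbigpos : big.Nonempty := by
    by_contra h
    rw [Finset.not_nonempty_iff_eq_empty] at h
    rw [h, Finset.sum_empty, zero_add] at hsplit
    omega
  have hbigsum : 4 * (n / 4) = ∑ O ∈ big, Nat.card O := by omega
  have h23 : (n % 4 = 2 ∨ n % 4 = 3) ↔ ∃ S, IsOrbit P S ∧ Nat.card S = 2 := by
    constructor
    · intro h
      by_contra! hno
      have hle : ∑ O ∈ small, Nat.card O ≤ 1 := by
        rw [hsmsum]
        refine (Finset.sum_le_sum_of_subset (t := {1}) fun k hk => ?_).trans (by simp)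
        obtain ⟨O, hO, rfl⟩ := Finset.mem_image.1 hk
        rcases hsm O hO with h' | h'
        · exact Finset.mem_singleton.2 h'
        · exact absurd h' (hno O ((hOs O).1 (Finset.filter_subset _ _ hO)))
      omega
    · rintro ⟨S, hS, hS2⟩
      have hSs : S ∈ small := by rw [hsmall, Finset.mem_filter, hOs]; exact ⟨hS, by omega⟩
      have : 2 ≤ ∑ O ∈ small, Nat.card O :=
        hS2 ▸ Finset.single_le_sum (f := fun O : Set α => Nat.card O) (fun _ _ => Nat.zero_le _) hSs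
      omega
  constructor
  · rintro ⟨A, B, hA, hB, hprod⟩
    have no : ¬ (A = ⊥ ∨ B = ⊥) := by tauto
    by_contra hcon
    refine no ?_
    obtain ⟨O, hO⟩ := hbigpos
    have hO' := hO
    rw [hbig, Finset.mem_filter, hOs] at hO'
    by_cases hs2 : ∃ S, IsOrbit P S ∧ Nat.card S = 2
    · obtain ⟨S, hS, hS2⟩ := hs2
      have hpow : ∃ r, 4 * (n / 4) = 2 ^ r := by
        by_contra! h
        exact hcon ⟨h23.2 ⟨S, hS, hS2⟩, h⟩
      refine indecomposable_two_small hO'.1 hS (fun h => by rw [h] at hO'; omega) hS2 ?_ hprod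
      intro O₂ hO₂ hne hneS
      rcases Nat.lt_or_ge (Nat.card O₂) 4 with hlt | hge
      · have hmem : O₂ ∈ small := by rw [hsmall, Finset.mem_filter, hOs]; exact ⟨hO₂, by omega⟩
        refine (hsm O₂ hmem).resolve_right fun h2 => hneS ?_
        exact orbit_card_injective hO₂ hS (h2.trans hS2.symm)
      · exfalso
        obtain ⟨r, hr⟩ := hpow
        rw [hbigsum] at hr
        let ex : Set α → ℕ := fun Q => Nat.log 2 (Nat.card Q)
        have hex : ∀ Q ∈ big, 2 ^ ex Q = Nat.card Q := fun Q hQ => by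
          obtain ⟨k, -, hk⟩ := hbigdvd Q hQ
          simp only [ex, hk, Nat.log_pow one_lt_two]
        have hexinj : Set.InjOn ex (big : Set (Set α)) := fun Q hQ Q' hQ' h =>
          hinj (Finset.filter_subset _ _ hQ) (Finset.filter_subset _ _ hQ')
            ((hex Q hQ).symm.trans ((congrArg (2 ^ ·) h).trans (hex Q' hQ')))
        refine sum_two_pow_ne (s := big.image ex) ?_ r ?_
        · rw [Finset.card_image_of_injOn hexinj]
          exact Finset.one_lt_card.2 ⟨O, hO, O₂, by rw [hbig, Finset.mem_filter, hOs]; exact ⟨hO₂, hge⟩, hne.symm⟩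
        · rw [Finset.sum_image fun a ha b hb h => hexinj ha hb h, Finset.sum_congr rfl hex, hr]
    · push Not at hs2
      have hsmall1 : ∀ Q, IsOrbit P Q → Nat.card Q = 1 ∨ 4 ≤ Nat.card Q := by
        intro Q hQ
        rcases Nat.lt_or_ge (Nat.card Q) 4 with hlt | hge
        · have hmem : Q ∈ small := by rw [hsmall, Finset.mem_filter, hOs]; exact ⟨hQ, by omega⟩
          exact Or.inl ((hsm Q hmem).resolve_right (hs2 Q hQ))
        · exact Or.inr hge
      by_cases hmany : ∃ O₂, IsOrbit P O₂ ∧ O₂ ≠ O ∧ 4 ≤ Nat.card O₂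
      · obtain ⟨O₂, hO₂, hne, hge⟩ := hmany
        refine indecomposable_multi hsmall1 (fun Q _ => ?_) hprod
        by_cases hQ : Q = O
        · exact ⟨O₂, hO₂, hQ ▸ hne, hge⟩
        · exact ⟨O, hO'.1, fun h => hQ h.symm, hO'.2⟩
      · push Not at hmany
        have hbigone : big = {O} := Finset.eq_singleton_iff_unique_mem.2 ⟨hO, fun Q hQ => by
          rw [hbig, Finset.mem_filter, hOs] at hQ
          by_contra hne
          exact absurd hQ.2 (not_le.2 (hmany Q hQ.1 hne))⟩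
        have hle : ∑ Q ∈ small, Nat.card Q ≤ 1 := by
          rw [hsmsum]
          refine (Finset.sum_le_sum_of_subset (t := {1}) fun k hk => ?_).trans (by simp)
          obtain ⟨Q, hQ, rfl⟩ := Finset.mem_image.1 hk
          rcases hsm Q hQ with h' | h'
          · exact Finset.mem_singleton.2 h'
          · exact absurd h' (hs2 Q ((hOs Q).1 (Finset.filter_subset _ _ hQ)))
        rw [hbigone, Finset.sum_singleton] at hsplit
        refine indecomposable_single hO'.1 (by omega) (fun Q hQ hne => ?_) hprod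
        exact (hsmall1 Q hQ).resolve_right (not_le.2 (hmany Q hQ hne))
  · rintro ⟨h, hr⟩
    obtain ⟨S, hS, hS2⟩ := h23.1 h
    obtain ⟨O₁, h₁⟩ := hbigpos
    obtain ⟨O₂, h₂, hne⟩ : ∃ O₂ ∈ big, O₂ ≠ O₁ := by
      by_contra! hall
      obtain ⟨k, -, hk⟩ := hbigdvd O₁ h₁
      refine hr k ?_
      rw [hbigsum, Finset.eq_singleton_iff_unique_mem.2 ⟨h₁, hall⟩, Finset.sum_singleton, hk]
    rw [hbig, Finset.mem_filter, hOs] at h₁ h₂
    exact decomposable_of_two h₁.1 h₂.1 hS hne.symm hS2 h₁.2 h₂.2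

end Cfsg.Agent.AltSylowTwo
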